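import Cfsg.Agent.Lib.Helper94.SpGen2.Basis
import Cfsg.Agent.Lib.Helper94.SpPerp

set_option autoImplicit false
set_option linter.unusedSectionVars false
set_option linter.unusedSimpArgs false

/-!
# Centres of transvection groups: a connected spanning set of centres gives everything

A McLaughlin-type statement for the standard symplectic space over a field with at least three
elements: if the centres of the full transvection groups contained in a subgroup `K` include a
set `S` which is connected for non-orthogonality and has trivial orthogonal complement, then every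
vector is such a centre.
-/

namespace Cfsg.Agent.Lib.Helper94.SpRU

open Cfsg Cfsg.Geo Cfsg.Agent.Lib.Helper94 Cfsg.Agent.Lib.Helper94.SpGen2
open scoped MatrixGroups Matrix

variable {F : Type*} [Field F] {m : ℕ}

/-- The plane spanned by two non-orthogonal centres consists of centres. -/
lemma plane_mem_transCenters (K : Subgroup (GL (Fin m ⊕ Fin m) F)) {a b : Fin m ⊕ Fin m → F}
    (ha : a ∈ transCenters K) (hb : b ∈ transCenters K) (h : sympForm m F a b ≠ 0) :
    ∀ d ∈ Submodule.span F {a, b}, d ∈ transCenters K := by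
  intro d hd
  obtain ⟨α, β, rfl⟩ := Submodule.mem_span_pair.mp hd
  by_cases hα : α = 0
  · rw [hα, zero_smul, zero_add]
    exact smul_mem_transCenters K hb β
  by_cases hβ : β = 0
  · rw [hβ, zero_smul, add_zero]
    exact smul_mem_transCenters K ha α
  refine add_mem_transCenters K (smul_mem_transCenters K ha α) (smul_mem_transCenters K hb β) ?_
  rw [sf_smul_left, sf_smul_right]
  exact mul_ne_zero hα (mul_ne_zero hβ h)

/-- A plane spanned by two non-orthogonal vectors is non-degenerate. -/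
lemma plane_nondeg {a b : Fin m ⊕ Fin m → F} (h : sympForm m F a b ≠ 0) :
    IsNondegenerateOn (sympForm m F) (Submodule.span F {a, b}) := by
  have hamem : a ∈ Submodule.span F ({a, b} : Set (Fin m ⊕ Fin m → F)) :=
    Submodule.subset_span (by simp)
  have hbmem : b ∈ Submodule.span F ({a, b} : Set (Fin m ⊕ Fin m → F)) :=
    Submodule.subset_span (by simp)
  have hba : sympForm m F b a = - sympForm m F a b := sf_swap m b a
  intro w hw hw0
  obtain ⟨α, β, rfl⟩ := Submodule.mem_span_pair.mp hw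
  by_cases hα : α = 0
  · have hβ : β ≠ 0 := by
      intro hβ
      apply hw0
      rw [hα, hβ, zero_smul, zero_smul, add_zero]
    have e1 : sympForm m F (α • a + β • b) a = - (β * sympForm m F a b) := by
      rw [sf_add_left, sf_smul_left, sf_smul_left, sf_self, hba, hα]
      ring
    refine ⟨⟨a, hamem, ?_⟩, ⟨a, hamem, ?_⟩⟩
    · rw [sf_swap, e1, neg_neg]
      exact mul_ne_zero hβ h
    · rw [e1]
      exact neg_ne_zero.mpr (mul_ne_zero hβ h)
  · have e1 : sympForm m F (α • a + β • b) b = α * sympForm m F a b := by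
      rw [sf_add_left, sf_smul_left, sf_smul_left, sf_self]
      ring
    refine ⟨⟨b, hbmem, ?_⟩, ⟨b, hbmem, ?_⟩⟩
    · rw [sf_swap, e1]
      exact neg_ne_zero.mpr (mul_ne_zero hα h)
    · rw [e1]
      exact mul_ne_zero hα h

/-- The sum of two orthogonal non-degenerate subspaces is non-degenerate. -/
lemma sup_nondeg (A P : Submodule F (Fin m ⊕ Fin m → F))
    (hA : IsNondegenerateOn (sympForm m F) A) (hP : IsNondegenerateOn (sympForm m F) P)
    (horth : ∀ x ∈ A, ∀ y ∈ P, sympForm m F x y = 0) :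
    IsNondegenerateOn (sympForm m F) (A ⊔ P) := by
  have horth' : ∀ y ∈ P, ∀ x ∈ A, sympForm m F y x = 0 := by
    intro y hy x hx
    rw [sf_swap, horth x hx y hy, neg_zero]
  intro w hw hw0
  obtain ⟨x, hx, y, hy, rfl⟩ := Submodule.mem_sup.mp hw
  by_cases hx0 : x = 0
  · have hy0 : y ≠ 0 := by
      intro hy0
      apply hw0
      rw [hx0, hy0, add_zero]
    obtain ⟨⟨d, hd, h1⟩, ⟨d', hd', h2⟩⟩ := hP y hy hy0
    refine ⟨⟨d, Submodule.mem_sup_right hd, ?_⟩, ⟨d', Submodule.mem_sup_right hd', ?_⟩⟩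
    · rw [hx0, zero_add]; exact h1
    · rw [hx0, zero_add]; exact h2
  · obtain ⟨⟨d, hd, h1⟩, ⟨d', hd', h2⟩⟩ := hA x hx hx0
    refine ⟨⟨d, Submodule.mem_sup_left hd, ?_⟩, ⟨d', Submodule.mem_sup_left hd', ?_⟩⟩
    · rw [sf_add_right, horth d hd y hy, add_zero]; exact h1
    · rw [sf_add_left, horth' y hy d' hd', add_zero]; exact h2

/-- Changing the component in `A` of a centre with non-zero component in `A`. -/
lemma shift_mem (K : Subgroup (GL (Fin m ⊕ Fin m) F)) (A : Submodule F (Fin m ⊕ Fin m → F))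
    (hA : ∀ d ∈ A, d ∈ transCenters K) (hnd : IsNondegenerateOn (sympForm m F) A)
    {a c' : Fin m ⊕ Fin m → F} (ha : a ∈ A) (ha0 : a ≠ 0) (hc' : c' ∈ sperp A)
    (hc : a + c' ∈ transCenters K) {x : Fin m ⊕ Fin m → F} (hx : x ∈ A) (hx0 : x ≠ 0) :
    x + c' ∈ transCenters K := by
  have e : a + c' + (x - a) = x + c' := by abel
  rw [← e]
  refine add_mem_transCenters_of_sub K A hA hc (A.sub_mem hx ha) ?_ ?_
  · obtain ⟨⟨d, hd, hne⟩, -⟩ := hnd a ha ha0
    exact ⟨d, hd, by rw [sf_add_right, (mem_sperp A c').mp hc' d hd, add_zero]; exact hne⟩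
  · obtain ⟨⟨d, hd, hne⟩, -⟩ := hnd x hx hx0
    exact ⟨d, hd, by rw [e, sf_add_right, (mem_sperp A c').mp hc' d hd, add_zero]; exact hne⟩

/-- Splitting off the component orthogonal to `A`. -/
lemma comp_mem (hq : ∃ s : F, s ≠ 0 ∧ s ≠ -1) (K : Subgroup (GL (Fin m ⊕ Fin m) F))
    (A : Submodule F (Fin m ⊕ Fin m → F))
    (hA : ∀ d ∈ A, d ∈ transCenters K) (hnd : IsNondegenerateOn (sympForm m F) A)
    {a c' a₂ d₂ : Fin m ⊕ Fin m → F} (ha : a ∈ A) (ha0 : a ≠ 0) (hc' : c' ∈ sperp A)
    (hc : a + c' ∈ transCenters K) (ha₂ : a₂ ∈ A) (ha₂0 : a₂ ≠ 0) (hd₂ : d₂ ∈ sperp A)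
    (hc₂ : a₂ + d₂ ∈ transCenters K) (h : sympForm m F c' d₂ ≠ 0) :
    c' ∈ transCenters K := by
  obtain ⟨s, hs0, hs1⟩ := hq
  have hs1' : 1 + s ≠ 0 := by
    intro h1
    apply hs1
    linear_combination h1
  have hac' : sympForm m F c' a = 0 := (mem_sperp' A c').mp hc' a ha
  have hac'2 : sympForm m F a c' = 0 := (mem_sperp A c').mp hc' a ha
  have had : sympForm m F d₂ a = 0 := (mem_sperp' A d₂).mp hd₂ a ha
  have had2 : sympForm m F a d₂ = 0 := (mem_sperp A d₂).mp hd₂ a ha
  have hdc : sympForm m F d₂ c' = - sympForm m F c' d₂ := sf_swap m d₂ c'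
  have h1 : a + d₂ ∈ transCenters K := shift_mem K A hA hnd ha₂ ha₂0 hd₂ hc₂ ha ha0
  have hX : (a + c') + s • (a + d₂) ∈ transCenters K := by
    refine add_mem_transCenters K hc (smul_mem_transCenters K h1 s) ?_
    rw [sf_smul_right, sf_add_left, sf_add_right, sf_add_right, sf_self, had2, hac']
    simpa using mul_ne_zero hs0 h
  have h2 : ((1 + s) / s) • a + d₂ ∈ transCenters K := by
    refine shift_mem K A hA hnd ha₂ ha₂0 hd₂ hc₂ (A.smul_mem _ ha) ?_
    exact smul_ne_zero (div_ne_zero hs1' hs0) ha0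
  have hY : (-s) • (((1 + s) / s) • a + d₂) ∈ transCenters K := smul_mem_transCenters K h2 (-s)
  have hXY : sympForm m F ((a + c') + s • (a + d₂)) ((-s) • (((1 + s) / s) • a + d₂)) ≠ 0 := by
    have : sympForm m F ((a + c') + s • (a + d₂)) ((-s) • (((1 + s) / s) • a + d₂))
        = - (s * sympForm m F c' d₂) := by
      simp only [sf_smul_right, sf_smul_left, sf_add_left, sf_add_right, sf_self, had2, hac',
        hac'2, had, hdc]
      ring
    rw [this]
    exact neg_ne_zero.mpr (mul_ne_zero hs0 h)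
  have := add_mem_transCenters K hX hY hXY
  have e : (a + c') + s • (a + d₂) + (-s) • (((1 + s) / s) • a + d₂) = c' := by
    have hs : s * ((1 + s) / s) = 1 + s := mul_div_cancel₀ _ hs0
    rw [smul_add, smul_add, smul_smul]
    have : (-s) * ((1 + s) / s) = -(1 + s) := by rw [neg_mul, hs]
    rw [this]
    module
  rwa [e] at this

/-- The growth step. -/
theorem grow (hq : ∃ s : F, s ≠ 0 ∧ s ≠ -1) (K : Subgroup (GL (Fin m ⊕ Fin m) F))
    (A : Submodule F (Fin m ⊕ Fin m → F))
    (hA : ∀ d ∈ A, d ∈ transCenters K) (hnd : IsNondegenerateOn (sympForm m F) A)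
    {a c' c₂ : Fin m ⊕ Fin m → F} (ha : a ∈ A) (ha0 : a ≠ 0) (hc' : c' ∈ sperp A)
    (hc : a + c' ∈ transCenters K) (hc₂ : c₂ ∈ transCenters K) (h : sympForm m F c' c₂ ≠ 0) :
    ∃ A' : Submodule F (Fin m ⊕ Fin m → F), A < A' ∧ IsNondegenerateOn (sympForm m F) A' ∧
      ∀ d ∈ A', d ∈ transCenters K := by
  -- a second centre with non-zero component in `A`
  have key : ∃ a₂ ∈ A, a₂ ≠ 0 ∧ ∃ d₂ ∈ sperp A, a₂ + d₂ ∈ transCenters K ∧
      sympForm m F c' d₂ ≠ 0 := by
    obtain ⟨a₂, ha₂, d₂, hd₂, hsum⟩ := exists_add_sperp A hnd c₂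
    have hcd : sympForm m F c' d₂ ≠ 0 := by
      rw [← hsum, sf_add_right, (mem_sperp' A c').mp hc' a₂ ha₂, zero_add] at h
      exact h
    by_cases ha₂0 : a₂ = 0
    · refine ⟨a, ha, ha0, c' + d₂, (sperp A).add_mem hc' hd₂, ?_, ?_⟩
      · have hc₂' : d₂ ∈ transCenters K := by
          rw [ha₂0, zero_add] at hsum
          rw [hsum]
          exact hc₂
        have : a + c' + d₂ ∈ transCenters K := by
          refine add_mem_transCenters K hc hc₂' ?_
          rw [sf_add_left, (mem_sperp A d₂).mp hd₂ a ha, zero_add]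
          exact hcd
        rwa [add_assoc] at this
      · rw [sf_add_right, sf_self, zero_add]
        exact hcd
    · exact ⟨a₂, ha₂, ha₂0, d₂, hd₂, by rw [hsum]; exact hc₂, hcd⟩
  obtain ⟨a₂, ha₂, ha₂0, d₂, hd₂, hc₂', hcd⟩ := key
  have hdc : sympForm m F d₂ c' ≠ 0 := by
    rw [sf_swap]
    exact neg_ne_zero.mpr hcd
  have hc'C : c' ∈ transCenters K := comp_mem hq K A hA hnd ha ha0 hc' hc ha₂ ha₂0 hd₂ hc₂' hcd
  have hd₂C : d₂ ∈ transCenters K := comp_mem hq K A hA hnd ha₂ ha₂0 hd₂ hc₂' ha ha0 hc' hc hdc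
  set P : Submodule F (Fin m ⊕ Fin m → F) := Submodule.span F {c', d₂} with hP
  have hPC : ∀ d ∈ P, d ∈ transCenters K := plane_mem_transCenters K hc'C hd₂C hcd
  have hPnd : IsNondegenerateOn (sympForm m F) P := plane_nondeg hcd
  have hPperp : P ≤ sperp A := by
    rw [hP, Submodule.span_le]
    intro x hx
    rcases hx with rfl | rfl
    · exact hc'
    · exact hd₂
  have horth : ∀ x ∈ A, ∀ y ∈ P, sympForm m F x y = 0 := by
    intro x hx y hy
    exact (mem_sperp A y).mp (hPperp hy) x hx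
  have hc'P : c' ∈ P := Submodule.subset_span (by simp)
  have hc'0 : c' ≠ 0 := by
    intro h0
    apply hcd
    rw [h0, sf_zero_left]
  refine ⟨A ⊔ P, ?_, sup_nondeg A P hnd hPnd horth, ?_⟩
  · rw [SetLike.lt_iff_le_and_exists]
    refine ⟨le_sup_left, c', Submodule.mem_sup_right hc'P, ?_⟩
    intro hcA
    apply hcd
    exact (mem_sperp A d₂).mp hd₂ c' hcA
  · intro d hd
    obtain ⟨x, hx, y, hy, rfl⟩ := Submodule.mem_sup.mp hd
    exact pair_mem_transCenters K A P hA hPC horth hnd hPnd ha hc'P ha0 hc'0 hc hx hy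

lemma exists_ne_zero_ne_neg_one [Fintype F] (hq : 3 ≤ Fintype.card F) :
    ∃ s : F, s ≠ 0 ∧ s ≠ -1 := by
  classical
  by_contra hcon
  push Not at hcon
  have hsub : (Finset.univ : Finset F) ⊆ {0, -1} := by
    intro s _
    by_cases h : s = 0
    · simp [h]
    · simp [hcon s h]
  have h1 := Finset.card_le_card hsub
  have h2 : ({0, -1} : Finset F).card ≤ 2 := Finset.card_le_two
  rw [Finset.card_univ] at h1
  omega

/-- **Connected spanning sets of centres.** -/
theorem centers_of_connected [Fintype F] (hq : 3 ≤ Fintype.card F) (hm : 0 < m)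
    (K : Subgroup (GL (Fin m ⊕ Fin m) F)) (S : Set (Fin m ⊕ Fin m → F))
    (hS : ∀ s ∈ S, s ∈ transCenters K)
    (hdual : ∀ z : Fin m ⊕ Fin m → F, (∀ s ∈ S, sympForm m F z s = 0) → z = 0)
    (hconn : ∀ T : Set (Fin m ⊕ Fin m → F), T ⊆ S → T.Nonempty →
      (∀ x ∈ T, ∀ y ∈ S, sympForm m F x y ≠ 0 → y ∈ T) → S ⊆ T) :
    ∀ v : Fin m ⊕ Fin m → F, v ∈ transCenters K := by
  have hq' := exists_ne_zero_ne_neg_one hq
  have key : ∀ A : Submodule F (Fin m ⊕ Fin m → F), A ≠ ⊥ →
      IsNondegenerateOn (sympForm m F) A → (∀ d ∈ A, d ∈ transCenters K) →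
      ∀ v : Fin m ⊕ Fin m → F, v ∈ transCenters K := by
    intro A
    induction A using WellFoundedGT.induction with
    | ind A ih =>
      intro hAbot hnd hA v
      by_cases hAtop : A = ⊤
      · exact hA v (by rw [hAtop]; exact Submodule.mem_top)
      have hex : ∃ c ∈ S, c ∉ A ∧ c ∉ sperp A := by
        by_contra hcon
        push Not at hcon
        by_cases hT : ({c | c ∈ S ∧ c ∈ A} : Set (Fin m ⊕ Fin m → F)).Nonempty
        · have hsub := hconn {c | c ∈ S ∧ c ∈ A} (fun c hc => hc.1) hT (by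
            intro x hx y hy hxy
            refine ⟨hy, ?_⟩
            by_contra hyA
            exact hxy ((mem_sperp A y).mp (hcon y hy hyA) x hx.2))
          have hcompl := (isCompl_sperp A hnd).sup_eq_top
          have hperp : sperp A ≠ ⊥ := by
            intro hbot
            rw [hbot, sup_bot_eq] at hcompl
            exact hAtop hcompl
          obtain ⟨z, hz, hz0⟩ := (Submodule.ne_bot_iff _).mp hperp
          apply hz0
          apply hdual
          intro s hs
          exact (mem_sperp' A z).mp hz s (hsub hs).2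
        · apply hAbot
          rw [Submodule.eq_bot_iff]
          intro d hd
          apply hdual
          intro s hs
          have hsA : s ∉ A := fun h => hT ⟨s, hs, h⟩
          exact (mem_sperp A s).mp (hcon s hs hsA) d hd
      obtain ⟨c, hcS, hcA, hcP⟩ := hex
      obtain ⟨a, ha, c', hc', hsum⟩ := exists_add_sperp A hnd c
      have ha0 : a ≠ 0 := by
        intro h0
        apply hcP
        rw [← hsum, h0, zero_add]
        exact hc'
      have hc'0 : c' ≠ 0 := by
        intro h0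
        apply hcA
        rw [← hsum, h0, add_zero]
        exact ha
      have hex2 : ∃ c₂ ∈ S, sympForm m F c' c₂ ≠ 0 := by
        by_contra hcon
        push Not at hcon
        exact hc'0 (hdual c' hcon)
      obtain ⟨c₂, hc₂S, hc₂⟩ := hex2
      obtain ⟨A', hlt, hnd', hA'⟩ := grow hq' K A hA hnd ha ha0 hc'
        (by rw [hsum]; exact hS c hcS) (hS c₂ hc₂S) hc₂
      exact ih A' hlt (ne_bot_of_gt hlt) hnd' hA' v
  -- a first plane
  have hex : ∃ x ∈ S, x ≠ 0 := by
    by_contra hcon
    push Not at hcon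
    have : (eB (⟨0, hm⟩ : Fin m) : Fin m ⊕ Fin m → F) = 0 := by
      apply hdual
      intro s hs
      rw [hcon s hs, sf_zero_right]
    exact eB_ne_zero _ this
  obtain ⟨x, hxS, hx0⟩ := hex
  have hex2 : ∃ y ∈ S, sympForm m F x y ≠ 0 := by
    by_contra hcon
    push Not at hcon
    exact hx0 (hdual x hcon)
  obtain ⟨y, hyS, hxy⟩ := hex2
  refine key (Submodule.span F {x, y}) ?_ (plane_nondeg hxy)
    (plane_mem_transCenters K (hS x hxS) (hS y hyS) hxy)
  intro hbot
  apply hx0
  have : x ∈ Submodule.span F ({x, y} : Set (Fin m ⊕ Fin m → F)) :=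
    Submodule.subset_span (by simp)
  rw [hbot] at this
  exact (Submodule.mem_bot F).mp this

end Cfsg.Agent.Lib.Helper94.SpRU
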