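import Cfsg.Agent.Lib.Helper94.SpRU.Small
import Cfsg.Agent.Lib.Helper94.SpGen2.CaseA
import Cfsg.Agent.Lib.Helper13.SpParab

set_option autoImplicit false
set_option linter.unusedSectionVars false
set_option linter.unusedSimpArgs false

/-!
# Three conjugates of the regular unipotent element over a field with at least four elements

The second conjugate `u^g` is chosen so that `u⁻¹ u^g` (or `u⁻² u^g`) scales a vector `a` by a
generator of the multiplicative group; the third one is `u^g T_a(d)`, obtained from a torus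
element.  Then `a` is a centre, and the connected-spanning-set lemma finishes.
-/

namespace Cfsg.Agent.Lib.Helper94.SpRU

open Cfsg Cfsg.Geo Cfsg.Agent.Lib.Helper94 Cfsg.Agent.Lib.Helper94.SpGen2
open scoped MatrixGroups Matrix

variable {F : Type*} [Field F] {m : ℕ}

/-! ### The torus element -/

lemma hd_eN (s : Fˣ) (k : ℕ) :
    ((diagGL (hd m s) : GL (Fin m ⊕ Fin m) F) : Matrix (Fin m ⊕ Fin m) (Fin m ⊕ Fin m) F) *ᵥ
      eN m F k = (s : F) • eN m F k := by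
  unfold eN
  split_ifs
  · exact hd_eB s _
  · rw [Matrix.mulVec_zero, smul_zero]

lemma hd_fN (s : Fˣ) (k : ℕ) :
    ((diagGL (hd m s) : GL (Fin m ⊕ Fin m) F) : Matrix (Fin m ⊕ Fin m) (Fin m ⊕ Fin m) F) *ᵥ
      fN m F k = ((s⁻¹ : Fˣ) : F) • fN m F k := by
  unfold fN
  split_ifs
  · exact hd_fB s _
  · rw [Matrix.mulVec_zero, smul_zero]

lemma hd_xN (s : Fˣ) (k : ℕ) :
    diagGL (hd m s) * xN m F k = xN m F k * diagGL (hd m s) := by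
  have h := siegelSp_conj (diagGL (hd m s)) (hd_mem s) (eN m F k) (fN m F (k + 1))
  rw [hd_eN, hd_fN, siegelSp_smul _ _ (sf_eN_fN_ne (by omega))] at h
  have h' : diagGL (hd m s) * xN m F k * (diagGL (hd m s))⁻¹ = xN m F k := h
  calc diagGL (hd m s) * xN m F k
      = diagGL (hd m s) * xN m F k * (diagGL (hd m s))⁻¹ * diagGL (hd m s) := by group
    _ = xN m F k * diagGL (hd m s) := by rw [h']

lemma hd_wN (s : Fˣ) (k : ℕ) :
    diagGL (hd m s) * wN m F k = wN m F k * diagGL (hd m s) := by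
  induction k with
  | zero =>
    show diagGL (hd m s) * (1 : GL (Fin m ⊕ Fin m) F) = 1 * diagGL (hd m s)
    rw [mul_one, one_mul]
  | succ k ih =>
    show diagGL (hd m s) * (wN m F k * xN m F k) = (wN m F k * xN m F k) * diagGL (hd m s)
    rw [← mul_assoc, ih, mul_assoc, hd_xN, ← mul_assoc]

/-- Conjugating `u` by the torus element multiplies it by a long root element. -/
theorem torus_trick (s : Fˣ) :
    diagGL (hd m s) * ruGL m F * (diagGL (hd m s))⁻¹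
      = ruGL m F * sympTransGL m (eN m F (m - 1)) ((s : F) * (s : F) - 1) := by
  have h1 : diagGL (hd m s) * sympTransGL m (eN m F (m - 1)) 1
      = sympTransGL m (eN m F (m - 1)) ((s : F) * (s : F) * 1) * diagGL (hd m s) := by
    rw [strans_rule _ (hd_mem s), hd_eN, strans_smul]
  unfold ruGL
  calc diagGL (hd m s) * (wN m F (m - 1) * sympTransGL m (eN m F (m - 1)) 1)
        * (diagGL (hd m s))⁻¹
      = (diagGL (hd m s) * wN m F (m - 1)) * sympTransGL m (eN m F (m - 1)) 1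
        * (diagGL (hd m s))⁻¹ := by group
    _ = wN m F (m - 1) * (diagGL (hd m s) * sympTransGL m (eN m F (m - 1)) 1)
        * (diagGL (hd m s))⁻¹ := by rw [hd_wN]; group
    _ = wN m F (m - 1) * sympTransGL m (eN m F (m - 1)) ((s : F) * (s : F) * 1) := by
        rw [h1]; group
    _ = wN m F (m - 1) * sympTransGL m (eN m F (m - 1)) 1
        * sympTransGL m (eN m F (m - 1)) ((s : F) * (s : F) - 1) := by
        rw [mul_assoc (wN m F (m - 1)), strans_mul]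
        congr 2
        ring

/-! ### A scaled centre of one transvection is a centre -/

theorem eig_center [Fintype F] (K : Subgroup (GL (Fin m ⊕ Fin m) F)) (a : Fin m ⊕ Fin m → F)
    (r : GL (Fin m ⊕ Fin m) F) (hrK : r ∈ K) (hrS : r ∈ spGL m F) (κ : Fˣ)
    (hκ : ∀ x : Fˣ, x ∈ Submonoid.powers κ)
    (hra : (r : Matrix (Fin m ⊕ Fin m) (Fin m ⊕ Fin m) F) *ᵥ a = (κ : F) • a) (d : F)
    (hd : d ≠ 0) (hT : sympTransGL m a d ∈ K) : a ∈ transCenters K := by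
  have hstep : ∀ c ∈ transScalars K a, (κ : F) * (κ : F) * c ∈ transScalars K a := by
    intro c hc
    rw [mem_transScalars] at hc ⊢
    have : sympTransGL m a ((κ : F) * (κ : F) * c) = r * sympTransGL m a c * r⁻¹ := by
      rw [sympTransGL_conj r hrS, hra, strans_smul]
    rw [this]
    exact K.mul_mem (K.mul_mem hrK hc) (K.inv_mem hrK)
  have hpow : ∀ j : ℕ, ∀ c ∈ transScalars K a,
      ((κ : F) ^ j) * ((κ : F) ^ j) * c ∈ transScalars K a := by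
    intro j
    induction j with
    | zero =>
      intro c hc
      simpa using hc
    | succ j ih =>
      intro c hc
      have := hstep _ (ih c hc)
      have e : (κ : F) ^ (j + 1) * (κ : F) ^ (j + 1) * c
          = (κ : F) * (κ : F) * ((κ : F) ^ j * (κ : F) ^ j * c) := by ring
      rw [e]
      exact this
  have hsq : ∀ y : F, d * y ^ 2 ∈ transScalars K a := by
    intro y
    by_cases hy : y = 0
    · rw [hy]
      simp
    · obtain ⟨j, hj⟩ := (Submonoid.mem_powers_iff (Units.mk0 y hy) κ).mp (hκ (Units.mk0 y hy))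
      have hy' : (κ : F) ^ j = y := by
        have := congrArg Units.val hj
        simpa using this
      have := hpow j d hT
      rw [hy'] at this
      have e : d * y ^ 2 = y * y * d := by ring
      rw [e]
      exact this
  intro c
  rw [← mem_transScalars]
  obtain ⟨y, z, hyz⟩ := field_diff_squares (c / d)
  have e : c = d * y ^ 2 - d * z ^ 2 := by
    rw [← mul_sub, ← hyz, mul_div_cancel₀ _ hd]
  rw [e]
  exact (transScalars K _).sub_mem (hsq y) (hsq z)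

lemma sp_form {g : GL (Fin m ⊕ Fin m) F} (hg : g ∈ spGL m F) (x y : Fin m ⊕ Fin m → F) :
    sympForm m F ((g : Matrix (Fin m ⊕ Fin m) (Fin m ⊕ Fin m) F) *ᵥ x)
      ((g : Matrix (Fin m ⊕ Fin m) (Fin m ⊕ Fin m) F) *ᵥ y) = sympForm m F x y :=
  (mem_spGL_iff m g).mp hg x y


lemma third_conj (g : GL (Fin m ⊕ Fin m) F) (hgS : g ∈ spGL m F) (s : Fˣ) :
    (g * diagGL (hd m s)) * ruGL m F * (g * diagGL (hd m s))⁻¹
      = (g * ruGL m F * g⁻¹) * sympTransGL m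
          ((g : Matrix (Fin m ⊕ Fin m) (Fin m ⊕ Fin m) F) *ᵥ eN m F (m - 1))
          ((s : F) * (s : F) - 1) := by
  have e4 : (g * diagGL (hd m s)) * ruGL m F * (g * diagGL (hd m s))⁻¹
      = g * (diagGL (hd m s) * ruGL m F * (diagGL (hd m s))⁻¹) * g⁻¹ := by group
  rw [e4, torus_trick, ← sympTransGL_conj g hgS]
  group

lemma conj_mulVec (g u : GL (Fin m ⊕ Fin m) F) (x : Fin m ⊕ Fin m → F) :
    ((g * u * g⁻¹ : GL (Fin m ⊕ Fin m) F) : Matrix (Fin m ⊕ Fin m) (Fin m ⊕ Fin m) F) *ᵥ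
      ((g : Matrix (Fin m ⊕ Fin m) (Fin m ⊕ Fin m) F) *ᵥ x)
      = (g : Matrix (Fin m ⊕ Fin m) (Fin m ⊕ Fin m) F) *ᵥ
        ((u : Matrix (Fin m ⊕ Fin m) (Fin m ⊕ Fin m) F) *ᵥ x) := by
  rw [gl_mul_mulVec, gl_mul_mulVec, gl_inv_mulVec_mulVec]

lemma conj_inv_mulVec (g u : GL (Fin m ⊕ Fin m) F) (x : Fin m ⊕ Fin m → F) :
    (((g * u * g⁻¹)⁻¹ : GL (Fin m ⊕ Fin m) F) : Matrix (Fin m ⊕ Fin m) (Fin m ⊕ Fin m) F) *ᵥ
      ((g : Matrix (Fin m ⊕ Fin m) (Fin m ⊕ Fin m) F) *ᵥ x)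
      = (g : Matrix (Fin m ⊕ Fin m) (Fin m ⊕ Fin m) F) *ᵥ
        (((u⁻¹ : GL (Fin m ⊕ Fin m) F) : Matrix (Fin m ⊕ Fin m) (Fin m ⊕ Fin m) F) *ᵥ x) := by
  have : (g * u * g⁻¹)⁻¹ = g * u⁻¹ * g⁻¹ := by group
  rw [this, conj_mulVec]

/-! ### Orbits under the powers of an element -/

/-- The orbit of a vector under the integer powers of `u`. -/
def orbZ (u : GL (Fin m ⊕ Fin m) F) (a : Fin m ⊕ Fin m → F) : Set (Fin m ⊕ Fin m → F) :=
  Set.range (fun j : ℤ =>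
    ((u ^ j : GL (Fin m ⊕ Fin m) F) : Matrix (Fin m ⊕ Fin m) (Fin m ⊕ Fin m) F) *ᵥ a)

lemma zpow_succ_mulVec (u : GL (Fin m ⊕ Fin m) F) (j : ℤ) (a : Fin m ⊕ Fin m → F) :
    ((u ^ (j + 1) : GL (Fin m ⊕ Fin m) F) : Matrix (Fin m ⊕ Fin m) (Fin m ⊕ Fin m) F) *ᵥ a
      = ((u ^ j : GL (Fin m ⊕ Fin m) F) : Matrix (Fin m ⊕ Fin m) (Fin m ⊕ Fin m) F) *ᵥ
        ((u : Matrix (Fin m ⊕ Fin m) (Fin m ⊕ Fin m) F) *ᵥ a) := by
  rw [zpow_add_one, gl_mul_mulVec]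

lemma zpow_pred_mulVec (u : GL (Fin m ⊕ Fin m) F) (j : ℤ) (a : Fin m ⊕ Fin m → F) :
    ((u ^ (j - 1) : GL (Fin m ⊕ Fin m) F) : Matrix (Fin m ⊕ Fin m) (Fin m ⊕ Fin m) F) *ᵥ a
      = ((u ^ j : GL (Fin m ⊕ Fin m) F) : Matrix (Fin m ⊕ Fin m) (Fin m ⊕ Fin m) F) *ᵥ
        (((u⁻¹ : GL (Fin m ⊕ Fin m) F) : Matrix (Fin m ⊕ Fin m) (Fin m ⊕ Fin m) F) *ᵥ a) := by
  rw [zpow_sub_one, gl_mul_mulVec]

lemma orbZ_mem_transCenters (K : Subgroup (GL (Fin m ⊕ Fin m) F)) {u : GL (Fin m ⊕ Fin m) F}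
    (huK : u ∈ K) (huS : u ∈ spGL m F) {a : Fin m ⊕ Fin m → F} (ha : a ∈ transCenters K) :
    ∀ x ∈ orbZ u a, x ∈ transCenters K := by
  rintro x ⟨j, rfl⟩
  exact mulVec_mem_transCenters K _ (K.zpow_mem huK j) ((spGL m F).zpow_mem huS j) ha

/-- Connectedness of the union of two orbits. -/
lemma conn_two_orbits {u : GL (Fin m ⊕ Fin m) F} (huS : u ∈ spGL m F)
    (a c : Fin m ⊕ Fin m → F) (hα : sympForm m F c a ≠ 0)
    (hβ : sympForm m F c ((u : Matrix (Fin m ⊕ Fin m) (Fin m ⊕ Fin m) F) *ᵥ a) ≠ 0)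
    (T : Set (Fin m ⊕ Fin m → F)) (hTn : T.Nonempty) (hTS : T ⊆ orbZ u a ∪ orbZ u c)
    (hcl : ∀ x ∈ T, ∀ y ∈ orbZ u a ∪ orbZ u c, sympForm m F x y ≠ 0 → y ∈ T) :
    orbZ u a ∪ orbZ u c ⊆ T := by
  have hA : ∀ j : ℤ, ((u ^ j : GL (Fin m ⊕ Fin m) F) :
      Matrix (Fin m ⊕ Fin m) (Fin m ⊕ Fin m) F) *ᵥ a ∈ orbZ u a ∪ orbZ u c :=
    fun j => Or.inl ⟨j, rfl⟩
  have hB : ∀ j : ℤ, ((u ^ j : GL (Fin m ⊕ Fin m) F) :
      Matrix (Fin m ⊕ Fin m) (Fin m ⊕ Fin m) F) *ᵥ c ∈ orbZ u a ∪ orbZ u c :=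
    fun j => Or.inr ⟨j, rfl⟩
  have hBA : ∀ j : ℤ, sympForm m F
      (((u ^ j : GL (Fin m ⊕ Fin m) F) : Matrix (Fin m ⊕ Fin m) (Fin m ⊕ Fin m) F) *ᵥ c)
      (((u ^ j : GL (Fin m ⊕ Fin m) F) : Matrix (Fin m ⊕ Fin m) (Fin m ⊕ Fin m) F) *ᵥ a) ≠ 0 := by
    intro j
    rw [sp_form ((spGL m F).zpow_mem huS j)]
    exact hα
  have hBA' : ∀ j : ℤ, sympForm m F
      (((u ^ j : GL (Fin m ⊕ Fin m) F) : Matrix (Fin m ⊕ Fin m) (Fin m ⊕ Fin m) F) *ᵥ c)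
      (((u ^ (j + 1) : GL (Fin m ⊕ Fin m) F) :
        Matrix (Fin m ⊕ Fin m) (Fin m ⊕ Fin m) F) *ᵥ a) ≠ 0 := by
    intro j
    rw [zpow_succ_mulVec, sp_form ((spGL m F).zpow_mem huS j)]
    exact hβ
  have s1 : ∀ j : ℤ, ((u ^ j : GL (Fin m ⊕ Fin m) F) :
      Matrix (Fin m ⊕ Fin m) (Fin m ⊕ Fin m) F) *ᵥ a ∈ T →
      ((u ^ j : GL (Fin m ⊕ Fin m) F) : Matrix (Fin m ⊕ Fin m) (Fin m ⊕ Fin m) F) *ᵥ c ∈ T := by
    intro j h
    refine hcl _ h _ (hB j) ?_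
    rw [sf_swap]
    exact neg_ne_zero.mpr (hBA j)
  have s2 : ∀ j : ℤ, ((u ^ j : GL (Fin m ⊕ Fin m) F) :
      Matrix (Fin m ⊕ Fin m) (Fin m ⊕ Fin m) F) *ᵥ c ∈ T →
      ((u ^ j : GL (Fin m ⊕ Fin m) F) : Matrix (Fin m ⊕ Fin m) (Fin m ⊕ Fin m) F) *ᵥ a ∈ T :=
    fun j h => hcl _ h _ (hA j) (hBA j)
  have s3 : ∀ j : ℤ, ((u ^ j : GL (Fin m ⊕ Fin m) F) :
      Matrix (Fin m ⊕ Fin m) (Fin m ⊕ Fin m) F) *ᵥ c ∈ T →
      ((u ^ (j + 1) : GL (Fin m ⊕ Fin m) F) :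
        Matrix (Fin m ⊕ Fin m) (Fin m ⊕ Fin m) F) *ᵥ a ∈ T :=
    fun j h => hcl _ h _ (hA (j + 1)) (hBA' j)
  have s4 : ∀ j : ℤ, ((u ^ (j + 1) : GL (Fin m ⊕ Fin m) F) :
      Matrix (Fin m ⊕ Fin m) (Fin m ⊕ Fin m) F) *ᵥ a ∈ T →
      ((u ^ j : GL (Fin m ⊕ Fin m) F) : Matrix (Fin m ⊕ Fin m) (Fin m ⊕ Fin m) F) *ᵥ c ∈ T := by
    intro j h
    refine hcl _ h _ (hB j) ?_
    rw [sf_swap]
    exact neg_ne_zero.mpr (hBA' j)
  have hbase : ∃ j₀ : ℤ, ((u ^ j₀ : GL (Fin m ⊕ Fin m) F) :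
      Matrix (Fin m ⊕ Fin m) (Fin m ⊕ Fin m) F) *ᵥ a ∈ T ∧
      ((u ^ j₀ : GL (Fin m ⊕ Fin m) F) : Matrix (Fin m ⊕ Fin m) (Fin m ⊕ Fin m) F) *ᵥ c ∈ T := by
    obtain ⟨x, hx⟩ := hTn
    rcases hTS hx with ⟨j, hj⟩ | ⟨j, hj⟩
    · have hj' : ((u ^ j : GL (Fin m ⊕ Fin m) F) :
          Matrix (Fin m ⊕ Fin m) (Fin m ⊕ Fin m) F) *ᵥ a = x := hj
      rw [← hj'] at hx
      exact ⟨j, hx, s1 j hx⟩
    · have hj' : ((u ^ j : GL (Fin m ⊕ Fin m) F) :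
          Matrix (Fin m ⊕ Fin m) (Fin m ⊕ Fin m) F) *ᵥ c = x := hj
      rw [← hj'] at hx
      exact ⟨j, s2 j hx, hx⟩
  obtain ⟨j₀, hj₀⟩ := hbase
  have hall : ∀ j : ℤ, ((u ^ j : GL (Fin m ⊕ Fin m) F) :
      Matrix (Fin m ⊕ Fin m) (Fin m ⊕ Fin m) F) *ᵥ a ∈ T ∧
      ((u ^ j : GL (Fin m ⊕ Fin m) F) : Matrix (Fin m ⊕ Fin m) (Fin m ⊕ Fin m) F) *ᵥ c ∈ T := by
    intro j
    induction j using Int.inductionOn' (b := j₀) with
    | zero => exact hj₀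
    | succ k _ ih =>
      have h1 := s3 k ih.2
      exact ⟨h1, s1 (k + 1) h1⟩
    | pred k _ ih =>
      have h0 := ih.1
      rw [show k = (k - 1) + 1 by ring] at h0
      have h1 := s4 (k - 1) h0
      exact ⟨s2 (k - 1) h1, h1⟩
  rintro x (⟨j, rfl⟩ | ⟨j, rfl⟩)
  · exact (hall j).1
  · exact (hall j).2

/-- Connectedness of an orbit with consecutive non-orthogonal members, plus one point. -/
lemma conn_orbit_point {u : GL (Fin m ⊕ Fin m) F} (huS : u ∈ spGL m F)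
    (a c : Fin m ⊕ Fin m → F)
    (hα : sympForm m F a ((u : Matrix (Fin m ⊕ Fin m) (Fin m ⊕ Fin m) F) *ᵥ a) ≠ 0)
    (hβ : sympForm m F c a ≠ 0)
    (T : Set (Fin m ⊕ Fin m → F)) (hTn : T.Nonempty) (hTS : T ⊆ orbZ u a ∪ {c})
    (hcl : ∀ x ∈ T, ∀ y ∈ orbZ u a ∪ {c}, sympForm m F x y ≠ 0 → y ∈ T) :
    orbZ u a ∪ {c} ⊆ T := by
  have hA : ∀ j : ℤ, ((u ^ j : GL (Fin m ⊕ Fin m) F) :
      Matrix (Fin m ⊕ Fin m) (Fin m ⊕ Fin m) F) *ᵥ a ∈ orbZ u a ∪ {c} :=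
    fun j => Or.inl ⟨j, rfl⟩
  have hc : c ∈ orbZ u a ∪ ({c} : Set (Fin m ⊕ Fin m → F)) := Or.inr rfl
  have hAA : ∀ j : ℤ, sympForm m F
      (((u ^ j : GL (Fin m ⊕ Fin m) F) : Matrix (Fin m ⊕ Fin m) (Fin m ⊕ Fin m) F) *ᵥ a)
      (((u ^ (j + 1) : GL (Fin m ⊕ Fin m) F) :
        Matrix (Fin m ⊕ Fin m) (Fin m ⊕ Fin m) F) *ᵥ a) ≠ 0 := by
    intro j
    rw [zpow_succ_mulVec, sp_form ((spGL m F).zpow_mem huS j)]
    exact hα
  have s1 : ∀ j : ℤ, ((u ^ j : GL (Fin m ⊕ Fin m) F) :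
      Matrix (Fin m ⊕ Fin m) (Fin m ⊕ Fin m) F) *ᵥ a ∈ T →
      ((u ^ (j + 1) : GL (Fin m ⊕ Fin m) F) :
        Matrix (Fin m ⊕ Fin m) (Fin m ⊕ Fin m) F) *ᵥ a ∈ T :=
    fun j h => hcl _ h _ (hA (j + 1)) (hAA j)
  have s2 : ∀ j : ℤ, ((u ^ (j + 1) : GL (Fin m ⊕ Fin m) F) :
      Matrix (Fin m ⊕ Fin m) (Fin m ⊕ Fin m) F) *ᵥ a ∈ T →
      ((u ^ j : GL (Fin m ⊕ Fin m) F) : Matrix (Fin m ⊕ Fin m) (Fin m ⊕ Fin m) F) *ᵥ a ∈ T := by
    intro j h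
    refine hcl _ h _ (hA j) ?_
    rw [sf_swap]
    exact neg_ne_zero.mpr (hAA j)
  have h0a : ((u ^ (0 : ℤ) : GL (Fin m ⊕ Fin m) F) :
      Matrix (Fin m ⊕ Fin m) (Fin m ⊕ Fin m) F) *ᵥ a = a := by
    rw [zpow_zero, Units.val_one, Matrix.one_mulVec]
  have h0mem : a ∈ orbZ u a ∪ ({c} : Set (Fin m ⊕ Fin m → F)) := by
    have := hA 0
    rwa [h0a] at this
  have hbase : ∃ j₀ : ℤ, ((u ^ j₀ : GL (Fin m ⊕ Fin m) F) :
      Matrix (Fin m ⊕ Fin m) (Fin m ⊕ Fin m) F) *ᵥ a ∈ T := by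
    obtain ⟨x, hx⟩ := hTn
    rcases hTS hx with ⟨j, hj⟩ | hxc
    · have hj' : ((u ^ j : GL (Fin m ⊕ Fin m) F) :
          Matrix (Fin m ⊕ Fin m) (Fin m ⊕ Fin m) F) *ᵥ a = x := hj
      rw [← hj'] at hx
      exact ⟨j, hx⟩
    · have hxc' : x = c := hxc
      rw [hxc'] at hx
      refine ⟨0, ?_⟩
      rw [h0a]
      exact hcl _ hx _ h0mem hβ
  obtain ⟨j₀, hj₀⟩ := hbase
  have hall : ∀ j : ℤ, ((u ^ j : GL (Fin m ⊕ Fin m) F) :
      Matrix (Fin m ⊕ Fin m) (Fin m ⊕ Fin m) F) *ᵥ a ∈ T := by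
    intro j
    induction j using Int.inductionOn' (b := j₀) with
    | zero => exact hj₀
    | succ k _ ih => exact s1 k ih
    | pred k _ ih =>
      rw [show k = (k - 1) + 1 by ring] at ih
      exact s2 (k - 1) ih
  rintro x (⟨j, rfl⟩ | hxc)
  · exact hall j
  · have hxc' : x = c := hxc
    rw [hxc']
    have h0 := hall 0
    rw [h0a] at h0
    refine hcl _ h0 _ hc ?_
    rw [sf_swap]
    exact neg_ne_zero.mpr hβ

/-- Vectors orthogonal to the orbit of `f_k` are orthogonal to the later `f_j` and all `e_j`. -/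
lemma dual_orbit (z : Fin m ⊕ Fin m → F) (k : ℕ) (hk : k < m)
    (hz : ∀ x ∈ orbZ (ruGL m F) (fN m F k), sympForm m F z x = 0) :
    (∀ j, k ≤ j → j < m → sympForm m F z (fN m F j) = 0) ∧
      (∀ j, j < m → sympForm m F z (eN m F j) = 0) := by
  have h := ru_chain (F := F) (m := m)
    (fun x => ∀ j : ℤ, sympForm m F z
      (((ruGL m F ^ j : GL (Fin m ⊕ Fin m) F) :
        Matrix (Fin m ⊕ Fin m) (Fin m ⊕ Fin m) F) *ᵥ x) = 0)
    (by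
      intro x y hx hy j
      rw [Matrix.mulVec_sub, sf_sub_right, hx j, hy j, sub_zero])
    (by
      intro x hx j
      rw [← zpow_succ_mulVec]
      exact hx (j + 1))
    (by
      intro x hx j
      rw [← zpow_pred_mulVec]
      exact hx (j - 1))
    k hk (fun j => hz _ ⟨j, rfl⟩)
  constructor
  · intro j hkj hj
    have := h.1 j hkj hj 0
    rwa [zpow_zero, Units.val_one, Matrix.one_mulVec] at this
  · intro j hj
    have := h.2 j hj 0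
    rwa [zpow_zero, Units.val_one, Matrix.one_mulVec] at this

end Cfsg.Agent.Lib.Helper94.SpRU
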