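import Cfsg.Agent.Lib.Helper94.SpRU.Large

set_option autoImplicit false
set_option linter.unusedSectionVars false
set_option linter.unusedSimpArgs false

/-!
# Fields with at least four elements: the main arguments
-/

namespace Cfsg.Agent.Lib.Helper94.SpRU

open Cfsg Cfsg.Geo Cfsg.Agent.Lib.Helper94 Cfsg.Agent.Lib.Helper94.SpGen2
open scoped MatrixGroups Matrix

variable {F : Type*} [Field F] {m : ℕ}

/-- The generic case: `u⁻¹ u^g` scales `f_0`. -/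
theorem large_main [Fintype F] (hq : 4 ≤ Fintype.card F) (hm : 2 ≤ m)
    (g : GL (Fin m ⊕ Fin m) F) (hgS : g ∈ spGL m F) (κ : Fˣ)
    (hκ : ∀ x : Fˣ, x ∈ Submonoid.powers κ)
    (hg1 : (g : Matrix (Fin m ⊕ Fin m) (Fin m ⊕ Fin m) F) *ᵥ eN m F (m - 1) = fN m F 0)
    (hg2 : (g : Matrix (Fin m ⊕ Fin m) (Fin m ⊕ Fin m) F) *ᵥ sN m F (m - 1)
      = (κ : F) • (((ruGL m F : GL (Fin m ⊕ Fin m) F) :
          Matrix (Fin m ⊕ Fin m) (Fin m ⊕ Fin m) F) *ᵥ fN m F 0))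
    (hy : sympForm m F
      (((ruGL m F ^ m : GL (Fin m ⊕ Fin m) F) : Matrix (Fin m ⊕ Fin m) (Fin m ⊕ Fin m) F) *ᵥ
        fN m F 0)
      (fN m F 0 - (g : Matrix (Fin m ⊕ Fin m) (Fin m ⊕ Fin m) F) *ᵥ eN m F (m - 2)) ≠ 0) :
    ∃ h : GL (Fin m ⊕ Fin m) F, h ∈ spGL m F ∧
      spGL m F ≤ Subgroup.closure {ruGL m F, g * ruGL m F * g⁻¹, h * ruGL m F * h⁻¹} := by
  classical
  have huS : ruGL m F ∈ spGL m F := ru_mem
  have hugS : g * ruGL m F * g⁻¹ ∈ spGL m F :=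
    (spGL m F).mul_mem ((spGL m F).mul_mem hgS huS) ((spGL m F).inv_mem hgS)
  have hκκ : κ * κ ≠ 1 := gen_sq_ne_one κ hκ (by rw [Fintype.card_units]; omega)
  have hd0 : (κ : F) * (κ : F) - 1 ≠ 0 := by
    intro h0
    apply hκκ
    apply Units.ext
    rw [Units.val_mul, Units.val_one]
    linear_combination h0
  have hκ0 : (κ : F) ≠ 0 := κ.ne_zero
  refine ⟨g * diagGL (hd m κ), (spGL m F).mul_mem hgS (hd_mem κ), ?_⟩
  set K : Subgroup (GL (Fin m ⊕ Fin m) F) :=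
    Subgroup.closure {ruGL m F, g * ruGL m F * g⁻¹,
      g * diagGL (hd m κ) * ruGL m F * (g * diagGL (hd m κ))⁻¹} with hK
  have huK : ruGL m F ∈ K := Subgroup.subset_closure (by simp)
  have hugK : g * ruGL m F * g⁻¹ ∈ K := Subgroup.subset_closure (by simp)
  have h3K : g * diagGL (hd m κ) * ruGL m F * (g * diagGL (hd m κ))⁻¹ ∈ K :=
    Subgroup.subset_closure (by simp)
  -- the long root element
  have hTK : sympTransGL m (fN m F 0) ((κ : F) * (κ : F) - 1) ∈ K := by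
    have e := third_conj g hgS κ
    rw [hg1] at e
    have : sympTransGL m (fN m F 0) ((κ : F) * (κ : F) - 1)
        = (g * ruGL m F * g⁻¹)⁻¹
          * (g * diagGL (hd m κ) * ruGL m F * (g * diagGL (hd m κ))⁻¹) := by
      rw [e, inv_mul_cancel_left]
    rw [this]
    exact K.mul_mem (K.inv_mem hugK) h3K
  -- the scaling element
  have hugf : ((g * ruGL m F * g⁻¹ : GL (Fin m ⊕ Fin m) F) :
      Matrix (Fin m ⊕ Fin m) (Fin m ⊕ Fin m) F) *ᵥ fN m F 0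
      = (κ : F) • (((ruGL m F : GL (Fin m ⊕ Fin m) F) :
          Matrix (Fin m ⊕ Fin m) (Fin m ⊕ Fin m) F) *ᵥ fN m F 0) := by
    have := conj_mulVec g (ruGL m F) (eN m F (m - 1))
    rw [hg1, ru_eN (by omega), hg2] at this
    exact this
  have hr : (((ruGL m F)⁻¹ * (g * ruGL m F * g⁻¹) : GL (Fin m ⊕ Fin m) F) :
      Matrix (Fin m ⊕ Fin m) (Fin m ⊕ Fin m) F) *ᵥ fN m F 0 = (κ : F) • fN m F 0 := by
    rw [gl_mul_mulVec, hugf, Matrix.mulVec_smul, gl_inv_mulVec_mulVec]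
  have hf0 : fN m F 0 ∈ transCenters K :=
    eig_center K (fN m F 0) _ (K.mul_mem (K.inv_mem huK) hugK)
      ((spGL m F).mul_mem ((spGL m F).inv_mem huS) hugS) κ hκ hr _ hd0 hTK
  -- the connector
  obtain ⟨x, hx⟩ : ∃ x : Fin m ⊕ Fin m → F, x = ((ruGL m F ^ m : GL (Fin m ⊕ Fin m) F) :
      Matrix (Fin m ⊕ Fin m) (Fin m ⊕ Fin m) F) *ᵥ fN m F 0 := ⟨_, rfl⟩
  have hxC : x ∈ transCenters K := by
    rw [hx]
    exact mulVec_mem_transCenters K _ (K.pow_mem huK m) ((spGL m F).pow_mem huS m) hf0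
  obtain ⟨cs, hcs⟩ : ∃ cs : Fin m ⊕ Fin m → F, cs = ((g * ruGL m F * g⁻¹ :
      GL (Fin m ⊕ Fin m) F) : Matrix (Fin m ⊕ Fin m) (Fin m ⊕ Fin m) F) *ᵥ x := ⟨_, rfl⟩
  have hcsC : cs ∈ transCenters K := by
    rw [hcs]
    exact mulVec_mem_transCenters K _ hugK hugS hxC
  have hα : sympForm m F cs (fN m F 0) ≠ 0 := by
    have e1 : (((g * ruGL m F * g⁻¹)⁻¹ : GL (Fin m ⊕ Fin m) F) :
        Matrix (Fin m ⊕ Fin m) (Fin m ⊕ Fin m) F) *ᵥ fN m F 0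
        = fN m F 0 - (g : Matrix (Fin m ⊕ Fin m) (Fin m ⊕ Fin m) F) *ᵥ eN m F (m - 2) := by
      have h1 := conj_inv_mulVec g (ruGL m F) (eN m F (m - 1))
      rw [hg1] at h1
      have e2 : (((ruGL m F)⁻¹ : GL (Fin m ⊕ Fin m) F) :
          Matrix (Fin m ⊕ Fin m) (Fin m ⊕ Fin m) F) *ᵥ eN m F (m - 1)
          = eN m F (m - 1) - eN m F (m - 2) := by
        have h2 := ru_inv_eN_succ (F := F) (m := m) (j := m - 2) (by omega)
        rwa [show m - 2 + 1 = m - 1 by omega] at h2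
      rw [h1, e2, Matrix.mulVec_sub, hg1]
    have e3 : sympForm m F cs (fN m F 0)
        = sympForm m F x ((((g * ruGL m F * g⁻¹)⁻¹ : GL (Fin m ⊕ Fin m) F) :
          Matrix (Fin m ⊕ Fin m) (Fin m ⊕ Fin m) F) *ᵥ fN m F 0) := by
      rw [hcs, ← sp_form hugS x, gl_mulVec_inv_mulVec]
    rw [e3, e1, hx]
    exact hy
  have hβ : sympForm m F cs (((ruGL m F : GL (Fin m ⊕ Fin m) F) :
      Matrix (Fin m ⊕ Fin m) (Fin m ⊕ Fin m) F) *ᵥ fN m F 0) ≠ 0 := by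
    have e1 : ((ruGL m F : GL (Fin m ⊕ Fin m) F) :
        Matrix (Fin m ⊕ Fin m) (Fin m ⊕ Fin m) F) *ᵥ fN m F 0
        = (κ : F)⁻¹ • (((g * ruGL m F * g⁻¹ : GL (Fin m ⊕ Fin m) F) :
          Matrix (Fin m ⊕ Fin m) (Fin m ⊕ Fin m) F) *ᵥ fN m F 0) := by
      rw [hugf, smul_smul, inv_mul_cancel₀ hκ0, one_smul]
    rw [e1, sf_smul_right, hcs, sp_form hugS, hx, ru_pow_fN0 (by omega) 0 (by omega)]
    exact mul_ne_zero (inv_ne_zero hκ0) (pow_ne_zero _ (neg_ne_zero.mpr one_ne_zero))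
  apply spGL_le_of_transCenters
  apply centers_of_connected (by omega) (by omega) K
    (orbZ (ruGL m F) (fN m F 0) ∪ orbZ (ruGL m F) cs)
  · rintro s (hs | hs)
    · exact orbZ_mem_transCenters K huK huS hf0 s hs
    · exact orbZ_mem_transCenters K huK huS hcsC s hs
  · intro z hz
    obtain ⟨h1, h2⟩ := dual_orbit z 0 (by omega) (fun x hx => hz x (Or.inl hx))
    exact vec_eq_zero_of_sf h2 (fun j hj => h1 j (Nat.zero_le j) hj)
  · intro T hTS hTn hcl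
    exact conn_two_orbits huS (fN m F 0) cs hα hβ T hTn hTS hcl


/-! ### Rank two in characteristic two -/

lemma ru2_fN1 :
    ((ruGL 2 F : GL (Fin 2 ⊕ Fin 2) F) : Matrix (Fin 2 ⊕ Fin 2) (Fin 2 ⊕ Fin 2) F) *ᵥ fN 2 F 1
      = fN 2 F 1 - sN 2 F 1 := ru_fN_last (F := F) (m := 2) (by omega)

lemma ru2_inv_eN1 :
    (((ruGL 2 F)⁻¹ : GL (Fin 2 ⊕ Fin 2) F) : Matrix (Fin 2 ⊕ Fin 2) (Fin 2 ⊕ Fin 2) F) *ᵥ
      eN 2 F 1 = eN 2 F 1 - eN 2 F 0 := ru_inv_eN_succ (F := F) (m := 2) (j := 0) (by omega)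

lemma ru2_sq_fN1 (h2 : (2 : F) = 0) :
    ((ruGL 2 F : GL (Fin 2 ⊕ Fin 2) F) : Matrix (Fin 2 ⊕ Fin 2) (Fin 2 ⊕ Fin 2) F) *ᵥ
      (((ruGL 2 F : GL (Fin 2 ⊕ Fin 2) F) : Matrix (Fin 2 ⊕ Fin 2) (Fin 2 ⊕ Fin 2) F) *ᵥ
        fN 2 F 1) = fN 2 F 1 - eN 2 F 0 := by
  rw [ru2_fN1, Matrix.mulVec_sub, ru2_fN1, sN_one, Matrix.mulVec_add,
    ru_eN (show 0 < 2 by omega), ru_eN (show 1 < 2 by omega), sN_zero, sN_one]
  have e : ∀ a b c : Fin 2 ⊕ Fin 2 → F,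
      c - (a + b) - (a + (a + b)) = c - a - (2 : F) • (a + b) := by
    intro a b c
    module
  rw [e, h2, zero_smul, sub_zero]

/-- Rank two, characteristic two: `u⁻² u^g` scales `f_1`. -/
theorem large_two_even [Fintype F] (hq : 4 ≤ Fintype.card F) (h2 : (2 : F) = 0)
    (g : GL (Fin 2 ⊕ Fin 2) F) (hgS : g ∈ spGL 2 F) (κ : Fˣ)
    (hκ : ∀ x : Fˣ, x ∈ Submonoid.powers κ)
    (hg1 : (g : Matrix (Fin 2 ⊕ Fin 2) (Fin 2 ⊕ Fin 2) F) *ᵥ eN 2 F 1 = fN 2 F 1)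
    (hg0 : (g : Matrix (Fin 2 ⊕ Fin 2) (Fin 2 ⊕ Fin 2) F) *ᵥ eN 2 F 0
      = (κ : F) • (((ruGL 2 F : GL (Fin 2 ⊕ Fin 2) F) :
          Matrix (Fin 2 ⊕ Fin 2) (Fin 2 ⊕ Fin 2) F) *ᵥ
        (((ruGL 2 F : GL (Fin 2 ⊕ Fin 2) F) : Matrix (Fin 2 ⊕ Fin 2) (Fin 2 ⊕ Fin 2) F) *ᵥ
          fN 2 F 1)) - fN 2 F 1) :
    ∃ h : GL (Fin 2 ⊕ Fin 2) F, h ∈ spGL 2 F ∧
      spGL 2 F ≤ Subgroup.closure {ruGL 2 F, g * ruGL 2 F * g⁻¹, h * ruGL 2 F * h⁻¹} := by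
  classical
  have huS : ruGL 2 F ∈ spGL 2 F := ru_mem
  have hugS : g * ruGL 2 F * g⁻¹ ∈ spGL 2 F :=
    (spGL 2 F).mul_mem ((spGL 2 F).mul_mem hgS huS) ((spGL 2 F).inv_mem hgS)
  have hκκ : κ * κ ≠ 1 := gen_sq_ne_one κ hκ (by rw [Fintype.card_units]; omega)
  have hd0 : (κ : F) * (κ : F) - 1 ≠ 0 := by
    intro h0
    apply hκκ
    apply Units.ext
    rw [Units.val_mul, Units.val_one]
    linear_combination h0
  have hκ0 : (κ : F) ≠ 0 := κ.ne_zero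
  have hκ1 : (κ : F) - 1 ≠ 0 := by
    intro h1
    apply hd0
    have : (κ : F) = 1 := by linear_combination h1
    rw [this]
    ring
  have hw := ru2_sq_fN1 (F := F) h2
  rw [hw] at hg0
  refine ⟨g * diagGL (hd 2 κ), (spGL 2 F).mul_mem hgS (hd_mem κ), ?_⟩
  set K : Subgroup (GL (Fin 2 ⊕ Fin 2) F) :=
    Subgroup.closure {ruGL 2 F, g * ruGL 2 F * g⁻¹,
      g * diagGL (hd 2 κ) * ruGL 2 F * (g * diagGL (hd 2 κ))⁻¹} with hK
  have huK : ruGL 2 F ∈ K := Subgroup.subset_closure (by simp)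
  have hugK : g * ruGL 2 F * g⁻¹ ∈ K := Subgroup.subset_closure (by simp)
  have h3K : g * diagGL (hd 2 κ) * ruGL 2 F * (g * diagGL (hd 2 κ))⁻¹ ∈ K :=
    Subgroup.subset_closure (by simp)
  have huiK : (ruGL 2 F)⁻¹ ∈ K := K.inv_mem huK
  have huiS : (ruGL 2 F)⁻¹ ∈ spGL 2 F := (spGL 2 F).inv_mem huS
  -- the long root element
  have hTK : sympTransGL 2 (fN 2 F 1) ((κ : F) * (κ : F) - 1) ∈ K := by
    have e := third_conj g hgS κ
    rw [show (2 - 1 : ℕ) = 1 from rfl, hg1] at e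
    have : sympTransGL 2 (fN 2 F 1) ((κ : F) * (κ : F) - 1)
        = (g * ruGL 2 F * g⁻¹)⁻¹
          * (g * diagGL (hd 2 κ) * ruGL 2 F * (g * diagGL (hd 2 κ))⁻¹) := by
      rw [e, inv_mul_cancel_left]
    rw [this]
    exact K.mul_mem (K.inv_mem hugK) h3K
  -- the scaling element
  have hugf : ((g * ruGL 2 F * g⁻¹ : GL (Fin 2 ⊕ Fin 2) F) :
      Matrix (Fin 2 ⊕ Fin 2) (Fin 2 ⊕ Fin 2) F) *ᵥ fN 2 F 1
      = (κ : F) • (fN 2 F 1 - eN 2 F 0) := by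
    have := conj_mulVec g (ruGL 2 F) (eN 2 F 1)
    rw [hg1, ru_eN (show 1 < 2 by omega), sN_one, Matrix.mulVec_add, hg0, hg1] at this
    rw [this]
    abel
  have hr : (((ruGL 2 F)⁻¹ * ((ruGL 2 F)⁻¹ * (g * ruGL 2 F * g⁻¹)) : GL (Fin 2 ⊕ Fin 2) F) :
      Matrix (Fin 2 ⊕ Fin 2) (Fin 2 ⊕ Fin 2) F) *ᵥ fN 2 F 1 = (κ : F) • fN 2 F 1 := by
    rw [gl_mul_mulVec, gl_mul_mulVec, hugf, ← hw, Matrix.mulVec_smul, Matrix.mulVec_smul,
      gl_inv_mulVec_mulVec, gl_inv_mulVec_mulVec]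
  have hf1 : fN 2 F 1 ∈ transCenters K :=
    eig_center K (fN 2 F 1) _ (K.mul_mem huiK (K.mul_mem huiK hugK))
      ((spGL 2 F).mul_mem huiS ((spGL 2 F).mul_mem huiS hugS)) κ hκ hr _ hd0 hTK
  -- `e_1` is a centre
  have hv1 : fN 2 F 1 - sN 2 F 1 ∈ transCenters K := by
    have := mulVec_mem_transCenters K _ huK huS hf1
    rwa [ru2_fN1] at this
  have hv2 : fN 2 F 1 - eN 2 F 0 ∈ transCenters K := by
    have := mulVec_mem_transCenters K _ huK huS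
      (mulVec_mem_transCenters K _ huK huS hf1)
    rwa [hw] at this
  have hff : sympForm 2 F (fN 2 F 1) (fN 2 F 1 - sN 2 F 1) = 1 := by
    rw [sf_sub_right, sf_fN_fN, sf_fN_sN, if_pos ⟨le_rfl, by omega⟩]
    ring
  have he1 : eN 2 F 1 ∈ transCenters K := by
    have hnv2 : -(fN 2 F 1 - eN 2 F 0) ∈ transCenters K := by
      have := smul_mem_transCenters K hv2 (-1)
      rwa [neg_one_smul] at this
    have hne : sympForm 2 F (fN 2 F 1 - sN 2 F 1) (-(fN 2 F 1 - eN 2 F 0)) ≠ 0 := by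
      rw [sf_neg_right, ← hw, ← ru2_fN1, ru_form, ru2_fN1, hff]
      exact neg_ne_zero.mpr one_ne_zero
    have h1 := add_mem_transCenters K hv1 hnv2 hne
    have e : fN 2 F 1 - sN 2 F 1 + -(fN 2 F 1 - eN 2 F 0) = (-1 : F) • eN 2 F 1 := by
      rw [sN_one]
      module
    rw [e] at h1
    have h2' := smul_mem_transCenters K h1 (-1)
    rwa [smul_smul, neg_one_mul, neg_neg, one_smul] at h2'
  -- the connector
  obtain ⟨cs, hcs⟩ : ∃ cs : Fin 2 ⊕ Fin 2 → F, cs = ((g * ruGL 2 F * g⁻¹ :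
      GL (Fin 2 ⊕ Fin 2) F) : Matrix (Fin 2 ⊕ Fin 2) (Fin 2 ⊕ Fin 2) F) *ᵥ eN 2 F 1 := ⟨_, rfl⟩
  have hcsC : cs ∈ transCenters K := by
    rw [hcs]
    exact mulVec_mem_transCenters K _ hugK hugS he1
  have hβv : sympForm 2 F cs (fN 2 F 1) = 2 - (κ : F) := by
    have e1 : (((g * ruGL 2 F * g⁻¹)⁻¹ : GL (Fin 2 ⊕ Fin 2) F) :
        Matrix (Fin 2 ⊕ Fin 2) (Fin 2 ⊕ Fin 2) F) *ᵥ fN 2 F 1
        = fN 2 F 1 - ((κ : F) • (fN 2 F 1 - eN 2 F 0) - fN 2 F 1) := by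
      have h1 := conj_inv_mulVec g (ruGL 2 F) (eN 2 F 1)
      rw [hg1] at h1
      rw [h1, ru2_inv_eN1, Matrix.mulVec_sub, hg1, hg0]
    have e3 : sympForm 2 F cs (fN 2 F 1)
        = sympForm 2 F (eN 2 F 1) ((((g * ruGL 2 F * g⁻¹)⁻¹ : GL (Fin 2 ⊕ Fin 2) F) :
          Matrix (Fin 2 ⊕ Fin 2) (Fin 2 ⊕ Fin 2) F) *ᵥ fN 2 F 1) := by
      rw [hcs, ← sp_form hugS (eN 2 F 1), gl_mulVec_inv_mulVec]
    rw [e3, e1]
    simp only [sf_sub_right, sf_smul_right, sf_eN_fN_self (show 1 < 2 by omega), sf_eN_eN]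
    ring
  have hβ : sympForm 2 F cs (fN 2 F 1) ≠ 0 := by
    rw [hβv, h2, zero_sub]
    exact neg_ne_zero.mpr hκ0
  have hγ : sympForm 2 F cs (eN 2 F 0) ≠ 0 := by
    intro hγ0
    have E1 : sympForm 2 F cs ((g : Matrix (Fin 2 ⊕ Fin 2) (Fin 2 ⊕ Fin 2) F) *ᵥ eN 2 F 0)
        = (κ : F) - 1 := by
      have h1 := conj_mulVec g (ruGL 2 F) (eN 2 F 0)
      rw [ru_eN_zero (by omega)] at h1
      rw [hcs, ← h1, sp_form hugS, hg0]
      simp only [sf_sub_right, sf_smul_right, sf_eN_fN_self (show 1 < 2 by omega), sf_eN_eN]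
      ring
    have E2 : sympForm 2 F cs ((g : Matrix (Fin 2 ⊕ Fin 2) (Fin 2 ⊕ Fin 2) F) *ᵥ eN 2 F 0)
        = ((κ : F) - 1) * sympForm 2 F cs (fN 2 F 1) - (κ : F) * sympForm 2 F cs (eN 2 F 0) := by
      rw [hg0]
      simp only [sf_sub_right, sf_smul_right]
      ring
    rw [E1, hβv, hγ0] at E2
    have : ((κ : F) - 1) * ((κ : F) - 1) = 0 := by linear_combination E2
    exact hκ1 (mul_self_eq_zero.mp this)
  apply spGL_le_of_transCenters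
  apply centers_of_connected (by omega) (by omega) K
    (orbZ (ruGL 2 F) (fN 2 F 1) ∪ {cs})
  · rintro s (hs | hs)
    · exact orbZ_mem_transCenters K huK huS hf1 s hs
    · have : s = cs := hs
      rw [this]
      exact hcsC
  · intro z hz
    obtain ⟨h1, h2'⟩ := dual_orbit z 1 (by omega) (fun x hx => hz x (Or.inl hx))
    have hzc : sympForm 2 F z cs = 0 := hz cs (Or.inr rfl)
    have hz0 : z - sympForm 2 F z (fN 2 F 0) • eN 2 F 0 = 0 := by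
      apply vec_eq_zero_of_sf
      · intro j hj
        rw [sf_sub_left, sf_smul_left, sf_eN_eN, h2' j hj]
        ring
      · intro j hj
        rw [sf_sub_left, sf_smul_left]
        by_cases hj0 : j = 0
        · subst hj0
          rw [sf_eN_fN_self (by omega)]
          ring
        · rw [sf_eN_fN_ne (fun h => hj0 h.symm), h1 j (by omega) hj]
          ring
    have hz1 : z = sympForm 2 F z (fN 2 F 0) • eN 2 F 0 := sub_eq_zero.mp hz0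
    rw [hz1, sf_smul_left] at hzc
    have hγ' : sympForm 2 F (eN 2 F 0) cs ≠ 0 := by
      rw [sf_swap]
      exact neg_ne_zero.mpr hγ
    have hc0 : sympForm 2 F z (fN 2 F 0) = 0 := by
      rcases mul_eq_zero.mp hzc with h | h
      · exact h
      · exact absurd h hγ'
    rw [hz1, hc0, zero_smul]
  · intro T hTS hTn hcl
    refine conn_orbit_point huS (fN 2 F 1) cs ?_ hβ T hTn hTS hcl
    rw [ru2_fN1, hff]
    exact one_ne_zero

end Cfsg.Agent.Lib.Helper94.SpRU
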