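import Cfsg.Agent.Lib.Helper94.SpRU.Large2

set_option autoImplicit false
set_option linter.unusedSectionVars false
set_option linter.unusedSimpArgs false

/-!
# Fields with at least four elements: the conjugating elements, and the transfer to
Mathlib's symplectic group
-/

namespace Cfsg.Agent.Lib.Helper94.SpRU

open Cfsg Cfsg.Geo Cfsg.Agent.Lib.Helper94 Cfsg.Agent.Lib.Helper94.SpGen2
open scoped MatrixGroups Matrix

variable {F : Type*} [Field F] {m : ℕ}

/-- Witt's lemma for isotropic tuples, with values in `spGL`. -/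
lemma exists_spGL_of_tuples {k : ℕ} (x y : Fin k → Fin m ⊕ Fin m → F)
    (hx : LinearIndependent F x) (hy : LinearIndependent F y)
    (hx0 : ∀ i j, sympForm m F (x i) (x j) = 0) (hy0 : ∀ i j, sympForm m F (y i) (y j) = 0) :
    ∃ g : GL (Fin m ⊕ Fin m) F, g ∈ spGL m F ∧
      ∀ i, (g : Matrix (Fin m ⊕ Fin m) (Fin m ⊕ Fin m) F) *ᵥ x i = y i := by
  obtain ⟨A, hA⟩ := Cfsg.Agent.Lib.Helper13.witt_isotropic_tuples x y hx hy hx0 hy0
  exact ⟨(Cfsg.Agent.Lib.Helper13.spToSpGL A).1, (Cfsg.Agent.Lib.Helper13.spToSpGL A).2, hA⟩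

lemma iso_three (a b c : Fin m ⊕ Fin m → F) (hab : sympForm m F a b = 0)
    (hac : sympForm m F a c = 0) (hbc : sympForm m F b c = 0) :
    ∀ i j : Fin 3, sympForm m F (![a, b, c] i) (![a, b, c] j) = 0 := by
  have hba : sympForm m F b a = 0 := by rw [sf_swap, hab, neg_zero]
  have hca : sympForm m F c a = 0 := by rw [sf_swap, hac, neg_zero]
  have hcb : sympForm m F c b = 0 := by rw [sf_swap, hbc, neg_zero]
  intro i j
  fin_cases i <;> fin_cases j <;> simp [sf_self, hab, hac, hbc, hba, hca, hcb]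

lemma iso_two (a b : Fin m ⊕ Fin m → F) (hab : sympForm m F a b = 0) :
    ∀ i j : Fin 2, sympForm m F (![a, b] i) (![a, b] j) = 0 := by
  have hba : sympForm m F b a = 0 := by rw [sf_swap, hab, neg_zero]
  intro i j
  fin_cases i <;> fin_cases j <;> simp [sf_self, hab, hba]

lemma li_three (a b c : Fin m ⊕ Fin m → F)
    (h : ∀ c0 c1 c2 : F, c0 • a + c1 • b + c2 • c = 0 → c0 = 0 ∧ c1 = 0 ∧ c2 = 0) :
    LinearIndependent F ![a, b, c] := by
  rw [Fintype.linearIndependent_iff]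
  intro d hd
  rw [Fin.sum_univ_three] at hd
  obtain ⟨h0, h1, h2⟩ := h (d 0) (d 1) (d 2) hd
  intro i
  fin_cases i
  · exact h0
  · exact h1
  · exact h2

lemma li_two (a b : Fin m ⊕ Fin m → F)
    (h : ∀ c0 c1 : F, c0 • a + c1 • b = 0 → c0 = 0 ∧ c1 = 0) :
    LinearIndependent F ![a, b] := by
  rw [Fintype.linearIndependent_iff]
  intro d hd
  rw [Fin.sum_univ_two] at hd
  obtain ⟨h0, h1⟩ := h (d 0) (d 1) hd
  intro i
  fin_cases i
  · exact h0
  · exact h1

/-- The conjugating element for rank at least three. -/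
lemma exists_g_three (k : ℕ) (κ : F) (hκ0 : κ ≠ 0) :
    ∃ g : GL (Fin (k + 3) ⊕ Fin (k + 3)) F, g ∈ spGL (k + 3) F ∧
      (g : Matrix (Fin (k + 3) ⊕ Fin (k + 3)) (Fin (k + 3) ⊕ Fin (k + 3)) F) *ᵥ
        eN (k + 3) F (k + 2) = fN (k + 3) F 0 ∧
      (g : Matrix (Fin (k + 3) ⊕ Fin (k + 3)) (Fin (k + 3) ⊕ Fin (k + 3)) F) *ᵥ
        eN (k + 3) F (k + 1) = κ • fN (k + 3) F 2 ∧
      (g : Matrix (Fin (k + 3) ⊕ Fin (k + 3)) (Fin (k + 3) ⊕ Fin (k + 3)) F) *ᵥ
        sN (k + 3) F (k + 2) = κ • (fN (k + 3) F 0 - fN (k + 3) F 1) := by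
  obtain ⟨g, hgS, hg⟩ := exists_spGL_of_tuples
    ![eN (k + 3) F (k + 2), eN (k + 3) F (k + 1), sN (k + 3) F k]
    ![fN (k + 3) F 0, κ • fN (k + 3) F 2,
      (κ - 1) • fN (k + 3) F 0 - κ • fN (k + 3) F 1 - κ • fN (k + 3) F 2]
    (by
      apply li_three
      intro c0 c1 c2 hc
      have e0 := congrArg (sympForm (k + 3) F (fN (k + 3) F (k + 2))) hc
      have e1 := congrArg (sympForm (k + 3) F (fN (k + 3) F (k + 1))) hc
      have e2 := congrArg (sympForm (k + 3) F (fN (k + 3) F 0)) hc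
      rw [sf_add_right, sf_add_right, sf_smul_right, sf_smul_right, sf_smul_right,
        sf_fN_eN_self (by omega), sf_fN_eN_ne (by omega), sf_fN_sN, if_neg (by omega),
        sf_zero_right] at e0
      rw [sf_add_right, sf_add_right, sf_smul_right, sf_smul_right, sf_smul_right,
        sf_fN_eN_self (by omega), sf_fN_eN_ne (by omega), sf_fN_sN, if_neg (by omega),
        sf_zero_right] at e1
      rw [sf_add_right, sf_add_right, sf_smul_right, sf_smul_right, sf_smul_right,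
        sf_fN_eN_ne (by omega), sf_fN_eN_ne (by omega), sf_fN_sN,
        if_pos ⟨Nat.zero_le k, by omega⟩, sf_zero_right] at e2
      refine ⟨?_, ?_, ?_⟩
      · linear_combination -e0
      · linear_combination -e1
      · linear_combination -e2)
    (by
      apply li_three
      intro c0 c1 c2 hc
      have e0 := congrArg (sympForm (k + 3) F (eN (k + 3) F 1)) hc
      have e1 := congrArg (sympForm (k + 3) F (eN (k + 3) F 2)) hc
      have e2 := congrArg (sympForm (k + 3) F (eN (k + 3) F 0)) hc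
      simp only [sf_add_right, sf_sub_right, sf_smul_right,
        sf_eN_fN_self (show 1 < k + 3 by omega), sf_eN_fN_ne (show (1 : ℕ) ≠ 0 by omega),
        sf_eN_fN_ne (show (1 : ℕ) ≠ 2 by omega), sf_zero_right] at e0
      simp only [sf_add_right, sf_sub_right, sf_smul_right,
        sf_eN_fN_self (show 2 < k + 3 by omega), sf_eN_fN_ne (show (2 : ℕ) ≠ 0 by omega),
        sf_eN_fN_ne (show (2 : ℕ) ≠ 1 by omega), sf_zero_right] at e1
      simp only [sf_add_right, sf_sub_right, sf_smul_right,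
        sf_eN_fN_self (show 0 < k + 3 by omega), sf_eN_fN_ne (show (0 : ℕ) ≠ 1 by omega),
        sf_eN_fN_ne (show (0 : ℕ) ≠ 2 by omega), sf_zero_right] at e2
      have h2 : c2 = 0 := by
        have : c2 * κ = 0 := by linear_combination -e0
        rcases mul_eq_zero.mp this with h | h
        · exact h
        · exact absurd h hκ0
      have h1 : c1 = 0 := by
        rw [h2] at e1
        have : c1 * κ = 0 := by linear_combination e1
        rcases mul_eq_zero.mp this with h | h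
        · exact h
        · exact absurd h hκ0
      refine ⟨?_, h1, h2⟩
      rw [h1, h2] at e2
      linear_combination e2)
    (iso_three _ _ _ (sf_eN_eN _ _) (sf_eN_sN _ _) (sf_eN_sN _ _))
    (iso_three _ _ _
      (by rw [sf_smul_right, sf_fN_fN, mul_zero])
      (by simp only [sf_sub_right, sf_smul_right, sf_fN_fN]; ring)
      (by simp only [sf_sub_right, sf_smul_right, sf_smul_left, sf_fN_fN]; ring))
  have h0 : (g : Matrix (Fin (k + 3) ⊕ Fin (k + 3)) (Fin (k + 3) ⊕ Fin (k + 3)) F) *ᵥ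
      eN (k + 3) F (k + 2) = fN (k + 3) F 0 := hg 0
  have h1 : (g : Matrix (Fin (k + 3) ⊕ Fin (k + 3)) (Fin (k + 3) ⊕ Fin (k + 3)) F) *ᵥ
      eN (k + 3) F (k + 1) = κ • fN (k + 3) F 2 := hg 1
  have h2 : (g : Matrix (Fin (k + 3) ⊕ Fin (k + 3)) (Fin (k + 3) ⊕ Fin (k + 3)) F) *ᵥ
      sN (k + 3) F k
      = (κ - 1) • fN (k + 3) F 0 - κ • fN (k + 3) F 1 - κ • fN (k + 3) F 2 := hg 2
  refine ⟨g, hgS, h0, h1, ?_⟩
  rw [show k + 2 = (k + 1) + 1 from rfl, sN_succ, sN_succ, Matrix.mulVec_add, Matrix.mulVec_add,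
    h0, h1, h2]
  module

/-- The conjugating element for rank two, odd characteristic. -/
lemma exists_g_two_odd (κ : F) (hκ0 : κ ≠ 0) :
    ∃ g : GL (Fin 2 ⊕ Fin 2) F, g ∈ spGL 2 F ∧
      (g : Matrix (Fin 2 ⊕ Fin 2) (Fin 2 ⊕ Fin 2) F) *ᵥ eN 2 F 1 = fN 2 F 0 ∧
      (g : Matrix (Fin 2 ⊕ Fin 2) (Fin 2 ⊕ Fin 2) F) *ᵥ eN 2 F 0
        = (κ - 1) • fN 2 F 0 - κ • fN 2 F 1 := by
  obtain ⟨g, hgS, hg⟩ := exists_spGL_of_tuples
    ![eN 2 F 1, eN 2 F 0] ![fN 2 F 0, (κ - 1) • fN 2 F 0 - κ • fN 2 F 1]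
    (by
      apply li_two
      intro c0 c1 hc
      have e0 := congrArg (sympForm 2 F (fN 2 F 1)) hc
      have e1 := congrArg (sympForm 2 F (fN 2 F 0)) hc
      rw [sf_add_right, sf_smul_right, sf_smul_right, sf_fN_eN_self (by omega),
        sf_fN_eN_ne (by omega), sf_zero_right] at e0
      rw [sf_add_right, sf_smul_right, sf_smul_right, sf_fN_eN_self (by omega),
        sf_fN_eN_ne (by omega), sf_zero_right] at e1
      refine ⟨?_, ?_⟩
      · linear_combination -e0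
      · linear_combination -e1)
    (by
      apply li_two
      intro c0 c1 hc
      have e0 := congrArg (sympForm 2 F (eN 2 F 1)) hc
      have e1 := congrArg (sympForm 2 F (eN 2 F 0)) hc
      simp only [sf_add_right, sf_sub_right, sf_smul_right,
        sf_eN_fN_self (show 1 < 2 by omega), sf_eN_fN_ne (show (1 : ℕ) ≠ 0 by omega),
        sf_zero_right] at e0
      simp only [sf_add_right, sf_sub_right, sf_smul_right,
        sf_eN_fN_self (show 0 < 2 by omega), sf_eN_fN_ne (show (0 : ℕ) ≠ 1 by omega),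
        sf_zero_right] at e1
      have h1 : c1 = 0 := by
        have : c1 * κ = 0 := by linear_combination -e0
        rcases mul_eq_zero.mp this with h | h
        · exact h
        · exact absurd h hκ0
      refine ⟨?_, h1⟩
      rw [h1] at e1
      linear_combination e1)
    (iso_two _ _ (sf_eN_eN _ _))
    (iso_two _ _ (by simp only [sf_sub_right, sf_smul_right, sf_fN_fN]; ring))
  exact ⟨g, hgS, hg 0, hg 1⟩

/-- The conjugating element for rank two, characteristic two. -/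
lemma exists_g_two_even (κ : F) (hκ0 : κ ≠ 0) :
    ∃ g : GL (Fin 2 ⊕ Fin 2) F, g ∈ spGL 2 F ∧
      (g : Matrix (Fin 2 ⊕ Fin 2) (Fin 2 ⊕ Fin 2) F) *ᵥ eN 2 F 1 = fN 2 F 1 ∧
      (g : Matrix (Fin 2 ⊕ Fin 2) (Fin 2 ⊕ Fin 2) F) *ᵥ eN 2 F 0
        = κ • (fN 2 F 1 - eN 2 F 0) - fN 2 F 1 := by
  obtain ⟨g, hgS, hg⟩ := exists_spGL_of_tuples
    ![eN 2 F 1, eN 2 F 0] ![fN 2 F 1, κ • (fN 2 F 1 - eN 2 F 0) - fN 2 F 1]
    (by
      apply li_two
      intro c0 c1 hc
      have e0 := congrArg (sympForm 2 F (fN 2 F 1)) hc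
      have e1 := congrArg (sympForm 2 F (fN 2 F 0)) hc
      rw [sf_add_right, sf_smul_right, sf_smul_right, sf_fN_eN_self (by omega),
        sf_fN_eN_ne (by omega), sf_zero_right] at e0
      rw [sf_add_right, sf_smul_right, sf_smul_right, sf_fN_eN_self (by omega),
        sf_fN_eN_ne (by omega), sf_zero_right] at e1
      refine ⟨?_, ?_⟩
      · linear_combination -e0
      · linear_combination -e1)
    (by
      apply li_two
      intro c0 c1 hc
      have e0 := congrArg (sympForm 2 F (fN 2 F 0)) hc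
      have e1 := congrArg (sympForm 2 F (eN 2 F 1)) hc
      simp only [sf_add_right, sf_sub_right, sf_smul_right, sf_fN_fN,
        sf_fN_eN_self (show 0 < 2 by omega), sf_zero_right] at e0
      simp only [sf_add_right, sf_sub_right, sf_smul_right, sf_eN_eN,
        sf_eN_fN_self (show 1 < 2 by omega), sf_zero_right] at e1
      have h1 : c1 = 0 := by
        have : c1 * κ = 0 := by linear_combination e0
        rcases mul_eq_zero.mp this with h | h
        · exact h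
        · exact absurd h hκ0
      refine ⟨?_, h1⟩
      rw [h1] at e1
      linear_combination e1)
    (iso_two _ _ (sf_eN_eN _ _))
    (iso_two _ _ (by
      simp only [sf_sub_right, sf_smul_right, sf_fN_fN, sf_fN_eN_ne (show (1 : ℕ) ≠ 0 by omega)]
      ring))
  exact ⟨g, hgS, hg 0, hg 1⟩

/-- **Fields with at least four elements.** -/
theorem large_case [Fintype F] (hq : 4 ≤ Fintype.card F) (hm : 2 ≤ m) :
    ∃ g h : GL (Fin m ⊕ Fin m) F, g ∈ spGL m F ∧ h ∈ spGL m F ∧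
      spGL m F ≤ Subgroup.closure {ruGL m F, g * ruGL m F * g⁻¹, h * ruGL m F * h⁻¹} := by
  classical
  obtain ⟨κ, hκ⟩ := IsCyclic.exists_monoid_generator (α := Fˣ)
  have hκκ : κ * κ ≠ 1 := gen_sq_ne_one κ hκ (by rw [Fintype.card_units]; omega)
  have hκ0 : (κ : F) ≠ 0 := κ.ne_zero
  have hκ1 : (κ : F) ≠ 1 := by
    intro h1
    apply hκκ
    apply Units.ext
    rw [Units.val_mul, h1]
    simp
  by_cases h3 : 3 ≤ m
  · obtain ⟨k, rfl⟩ : ∃ k, m = k + 3 := ⟨m - 3, by omega⟩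
    obtain ⟨g, hgS, h0, h1, h2⟩ := exists_g_three (F := F) k (κ : F) hκ0
    obtain ⟨h, hhS, hgen⟩ := large_main hq hm g hgS κ hκ
      (by rw [show k + 3 - 1 = k + 2 by omega]; exact h0)
      (by rw [show k + 3 - 1 = k + 2 by omega, ru_fN0 (by omega)]; exact h2)
      (by
        rw [show k + 3 - 2 = k + 1 by omega, h1, sf_sub_right, sf_smul_right,
          ru_pow_fN0 (by omega) 0 (by omega), ru_pow_fN0 (by omega) 2 (by omega)]
        have : (-1 : F) ^ (k + 3) - (κ : F) * (-1) ^ (k + 3)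
            = (-1) ^ (k + 3) * (1 - (κ : F)) := by ring
        rw [this]
        exact mul_ne_zero (pow_ne_zero _ (neg_ne_zero.mpr one_ne_zero))
          (sub_ne_zero.mpr (Ne.symm hκ1)))
    exact ⟨g, h, hgS, hhS, hgen⟩
  · have hm2 : m = 2 := by omega
    subst hm2
    by_cases h2 : (2 : F) = 0
    · obtain ⟨g, hgS, h1, h0⟩ := exists_g_two_even (F := F) (κ : F) hκ0
      obtain ⟨h, hhS, hgen⟩ := large_two_even hq h2 g hgS κ hκ h1
        (by rw [ru2_sq_fN1 h2]; exact h0)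
      exact ⟨g, h, hgS, hhS, hgen⟩
    · obtain ⟨g, hgS, h1, h0⟩ := exists_g_two_odd (F := F) (κ : F) hκ0
      obtain ⟨h, hhS, hgen⟩ := large_main hq hm g hgS κ hκ h1
        (by
          show (g : Matrix (Fin 2 ⊕ Fin 2) (Fin 2 ⊕ Fin 2) F) *ᵥ sN 2 F 1 = _
          rw [sN_one, Matrix.mulVec_add, h0, h1, ru_fN0 (by omega)]
          module)
        (by
          show sympForm 2 F
            (((ruGL 2 F ^ 2 : GL (Fin 2 ⊕ Fin 2) F) :
              Matrix (Fin 2 ⊕ Fin 2) (Fin 2 ⊕ Fin 2) F) *ᵥ fN 2 F 0)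
            (fN 2 F 0 - (g : Matrix (Fin 2 ⊕ Fin 2) (Fin 2 ⊕ Fin 2) F) *ᵥ eN 2 F 0) ≠ 0
          rw [h0, sf_sub_right, sf_sub_right, sf_smul_right, sf_smul_right,
            ru_pow_fN0 (by omega) 0 (by omega), ru_pow_fN0 (by omega) 1 (by omega)]
          have : (-1 : F) ^ 2 - (((κ : F) - 1) * (-1) ^ 2 - (κ : F) * (-1) ^ 2) = 2 := by ring
          rw [this]
          exact h2)
      exact ⟨g, h, hgS, hhS, hgen⟩

/-- The transfer to Mathlib's symplectic group. -/
theorem sp_three_gen_transfer (u g h : GL (Fin m ⊕ Fin m) F) (hu : u ∈ spGL m F)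
    (hg : g ∈ spGL m F) (hh : h ∈ spGL m F)
    (hgen : spGL m F ≤ Subgroup.closure {u, g * u * g⁻¹, h * u * h⁻¹}) :
    ∃ U G H : Matrix.symplecticGroup (Fin m) F,
      (U : Matrix (Fin m ⊕ Fin m) (Fin m ⊕ Fin m) F)
        = (u : Matrix (Fin m ⊕ Fin m) (Fin m ⊕ Fin m) F) ∧
      Subgroup.closure ({U, G * U * G⁻¹, H * U * H⁻¹} :
        Set (Matrix.symplecticGroup (Fin m) F)) = ⊤ := by
  let φ : Matrix.symplecticGroup (Fin m) F →* GL (Fin m ⊕ Fin m) F :=
    (Units.map (Matrix.symplecticGroup (Fin m) F).subtype).comp toUnits.toMonoidHom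
  have hφ : ∀ A : Matrix.symplecticGroup (Fin m) F,
      ((φ A : GL (Fin m ⊕ Fin m) F) : Matrix (Fin m ⊕ Fin m) (Fin m ⊕ Fin m) F) = A.1 :=
    fun A => rfl
  have huA : (u : Matrix (Fin m ⊕ Fin m) (Fin m ⊕ Fin m) F) ∈ Matrix.symplecticGroup (Fin m) F :=
    Cfsg.Agent.Lib.Helper13.mem_symplecticGroup_of_sympForm m ((mem_spGL_iff m u).mp hu)
  have hgA : (g : Matrix (Fin m ⊕ Fin m) (Fin m ⊕ Fin m) F) ∈ Matrix.symplecticGroup (Fin m) F :=
    Cfsg.Agent.Lib.Helper13.mem_symplecticGroup_of_sympForm m ((mem_spGL_iff m g).mp hg)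
  have hhA : (h : Matrix (Fin m ⊕ Fin m) (Fin m ⊕ Fin m) F) ∈ Matrix.symplecticGroup (Fin m) F :=
    Cfsg.Agent.Lib.Helper13.mem_symplecticGroup_of_sympForm m ((mem_spGL_iff m h).mp hh)
  refine ⟨⟨u.1, huA⟩, ⟨g.1, hgA⟩, ⟨h.1, hhA⟩, rfl, ?_⟩
  have e1 : φ ⟨u.1, huA⟩ = u := Units.ext rfl
  have e2 : φ ⟨g.1, hgA⟩ = g := Units.ext rfl
  have e3 : φ ⟨h.1, hhA⟩ = h := Units.ext rfl
  have hmap : (Subgroup.closure ({⟨u.1, huA⟩, ⟨g.1, hgA⟩ * ⟨u.1, huA⟩ * ⟨g.1, hgA⟩⁻¹,
      ⟨h.1, hhA⟩ * ⟨u.1, huA⟩ * ⟨h.1, hhA⟩⁻¹} :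
      Set (Matrix.symplecticGroup (Fin m) F))).map φ
      = Subgroup.closure {u, g * u * g⁻¹, h * u * h⁻¹} := by
    rw [MonoidHom.map_closure, Set.image_insert_eq, Set.image_pair, map_mul, map_mul, map_inv,
      map_mul, map_mul, map_inv, e1, e2, e3]
  rw [eq_top_iff, ← Cfsg.Agent.Lib.Helper8.closure_spTSet, Subgroup.closure_le]
  rintro A ⟨w, c, hA⟩
  have : φ A = sympTransGL m w c := by
    apply gl_ext
    intro x
    rw [hφ, hA, Cfsg.Agent.Lib.Helper13.sympTransvection_mulVec, sympTransGL_mulVec]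
  have hmem : φ A ∈ (Subgroup.closure ({⟨u.1, huA⟩, ⟨g.1, hgA⟩ * ⟨u.1, huA⟩ * ⟨g.1, hgA⟩⁻¹,
      ⟨h.1, hhA⟩ * ⟨u.1, huA⟩ * ⟨h.1, hhA⟩⁻¹} :
      Set (Matrix.symplecticGroup (Fin m) F))).map φ := by
    rw [hmap, this]
    exact hgen (sympTransGL_mem m w c)
  obtain ⟨A', hA', hAA'⟩ := hmem
  have hinj : Function.Injective φ := by
    intro X Y hXY
    apply Subtype.ext
    have := congrArg (fun g : GL (Fin m ⊕ Fin m) F =>
      (g : Matrix (Fin m ⊕ Fin m) (Fin m ⊕ Fin m) F)) hXY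
    simpa [hφ] using this
  rw [← hinj hAA']
  exact hA'

end Cfsg.Agent.Lib.Helper94.SpRU
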