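import Cfsg.Agent.Lib.Helper94.SpGen2.Torus
import Cfsg.Agent.Lib.Helper94.SpRU.Growth

set_option autoImplicit false
set_option linter.unusedSectionVars false
set_option linter.unusedSimpArgs false

/-!
# A regular unipotent element of the symplectic group

`ruGL m F` is the product of the simple root elements: `e_j ↦ e_0 + … + e_j`,
`f_j ↦ f_j - f_{j+1}` and `f_{m-1} ↦ f_{m-1} - (e_0 + … + e_{m-1})`.
-/

namespace Cfsg.Agent.Lib.Helper94.SpRU

open Cfsg Cfsg.Geo Cfsg.Agent.Lib.Helper94 Cfsg.Agent.Lib.Helper94.SpGen2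
open scoped MatrixGroups Matrix

variable {F : Type*} [Field F] {m : ℕ}

/-- Basis vectors `e_k` indexed by natural numbers (zero outside the range). -/
def eN (m : ℕ) (F : Type*) [Field F] (k : ℕ) : Fin m ⊕ Fin m → F :=
  if h : k < m then eB ⟨k, h⟩ else 0

/-- Basis vectors `f_k` indexed by natural numbers (zero outside the range). -/
def fN (m : ℕ) (F : Type*) [Field F] (k : ℕ) : Fin m ⊕ Fin m → F :=
  if h : k < m then fB ⟨k, h⟩ else 0

lemma eN_of_lt {k : ℕ} (h : k < m) : eN m F k = eB ⟨k, h⟩ := dif_pos h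

lemma fN_of_lt {k : ℕ} (h : k < m) : fN m F k = fB ⟨k, h⟩ := dif_pos h

lemma eN_of_ge {k : ℕ} (h : m ≤ k) : eN m F k = 0 := dif_neg (not_lt.mpr h)

lemma fN_of_ge {k : ℕ} (h : m ≤ k) : fN m F k = 0 := dif_neg (not_lt.mpr h)

lemma eN_val (i : Fin m) : eN m F i.val = eB i := by rw [eN_of_lt i.isLt]

lemma fN_val (i : Fin m) : fN m F i.val = fB i := by rw [fN_of_lt i.isLt]

lemma eN_inl (k : ℕ) (j : Fin m) : eN m F k (Sum.inl j) = 0 := by
  unfold eN
  split_ifs with h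
  · exact eB_inl _ _
  · rfl

lemma eN_inr (k : ℕ) (j : Fin m) : eN m F k (Sum.inr j) = if j.val = k then 1 else 0 := by
  unfold eN
  split_ifs with h h1 h1
  · rw [eB_inr, if_pos (Fin.ext h1)]
  · rw [eB_inr, if_neg (fun h2 => h1 (by rw [h2]))]
  · exact absurd (h1 ▸ j.isLt) h
  · rfl

lemma fN_inr (k : ℕ) (j : Fin m) : fN m F k (Sum.inr j) = 0 := by
  unfold fN
  split_ifs with h
  · exact fB_inr _ _
  · rfl

lemma fN_inl (k : ℕ) (j : Fin m) : fN m F k (Sum.inl j) = if j.val = k then 1 else 0 := by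
  unfold fN
  split_ifs with h h1 h1
  · rw [fB_inl, if_pos (Fin.ext h1)]
  · rw [fB_inl, if_neg (fun h2 => h1 (by rw [h2]))]
  · exact absurd (h1 ▸ j.isLt) h
  · rfl

lemma sf_eN_left (k : ℕ) (z : Fin m ⊕ Fin m → F) :
    sympForm m F (eN m F k) z = if h : k < m then z (Sum.inl ⟨k, h⟩) else 0 := by
  unfold eN
  split_ifs with h
  · exact sf_eB_left _ _
  · exact sf_zero_left m z

lemma sf_fN_left (k : ℕ) (z : Fin m ⊕ Fin m → F) :
    sympForm m F (fN m F k) z = if h : k < m then - z (Sum.inr ⟨k, h⟩) else 0 := by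
  unfold fN
  split_ifs with h
  · exact sf_fB_left _ _
  · exact sf_zero_left m z

lemma sf_eN_eN (i j : ℕ) : sympForm m F (eN m F i) (eN m F j) = 0 := by
  rw [sf_eN_left]
  split_ifs
  · exact eN_inl _ _
  · rfl

lemma sf_fN_fN (i j : ℕ) : sympForm m F (fN m F i) (fN m F j) = 0 := by
  rw [sf_fN_left]
  split_ifs
  · rw [fN_inr, neg_zero]
  · rfl

lemma sf_eN_fN (i j : ℕ) :
    sympForm m F (eN m F i) (fN m F j) = if i = j ∧ i < m then 1 else 0 := by
  rw [sf_eN_left]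
  by_cases h : i < m
  · rw [dif_pos h, fN_inl]
    by_cases hij : i = j
    · rw [if_pos hij, if_pos ⟨hij, h⟩]
    · rw [if_neg hij, if_neg (fun h' => hij h'.1)]
  · rw [dif_neg h, if_neg (fun h' => h h'.2)]

lemma sf_fN_eN (i j : ℕ) :
    sympForm m F (fN m F i) (eN m F j) = if i = j ∧ i < m then -1 else 0 := by
  rw [sf_swap, sf_eN_fN]
  by_cases h : i = j ∧ i < m
  · have h2 : j = i ∧ j < m := ⟨h.1.symm, h.1 ▸ h.2⟩
    rw [if_pos h, if_pos h2]
  · have h2 : ¬ (j = i ∧ j < m) := fun h' => h ⟨h'.1.symm, h'.1 ▸ h'.2⟩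
    rw [if_neg h, if_neg h2, neg_zero]

lemma sf_eN_fN_self {k : ℕ} (h : k < m) : sympForm m F (eN m F k) (fN m F k) = 1 := by
  rw [sf_eN_fN, if_pos ⟨rfl, h⟩]

lemma sf_fN_eN_self {k : ℕ} (h : k < m) : sympForm m F (fN m F k) (eN m F k) = -1 := by
  rw [sf_fN_eN, if_pos ⟨rfl, h⟩]

lemma sf_eN_fN_ne {i j : ℕ} (h : i ≠ j) : sympForm m F (eN m F i) (fN m F j) = 0 := by
  rw [sf_eN_fN, if_neg (fun h' => h h'.1)]

lemma sf_fN_eN_ne {i j : ℕ} (h : i ≠ j) : sympForm m F (fN m F i) (eN m F j) = 0 := by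
  rw [sf_fN_eN, if_neg (fun h' => h h'.1)]

/-- Two invertible matrices agreeing on the standard basis are equal. -/
lemma gl_ext_N {g h : GL (Fin m ⊕ Fin m) F}
    (he : ∀ j, j < m → (g : Matrix (Fin m ⊕ Fin m) (Fin m ⊕ Fin m) F) *ᵥ eN m F j
      = (h : Matrix (Fin m ⊕ Fin m) (Fin m ⊕ Fin m) F) *ᵥ eN m F j)
    (hf : ∀ j, j < m → (g : Matrix (Fin m ⊕ Fin m) (Fin m ⊕ Fin m) F) *ᵥ fN m F j
      = (h : Matrix (Fin m ⊕ Fin m) (Fin m ⊕ Fin m) F) *ᵥ fN m F j) : g = h := by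
  apply gl_ext
  intro x
  rw [vec_decomp x, Matrix.mulVec_sum, Matrix.mulVec_sum]
  apply Finset.sum_congr rfl
  intro i _
  rw [Matrix.mulVec_add, Matrix.mulVec_add, Matrix.mulVec_smul, Matrix.mulVec_smul,
    Matrix.mulVec_smul, Matrix.mulVec_smul, ← eN_val, ← fN_val, he _ i.isLt, hf _ i.isLt]

/-- A vector orthogonal to the standard basis is zero. -/
lemma vec_eq_zero_of_sf {z : Fin m ⊕ Fin m → F}
    (he : ∀ j, j < m → sympForm m F z (eN m F j) = 0)
    (hf : ∀ j, j < m → sympForm m F z (fN m F j) = 0) : z = 0 := by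
  funext idx
  rcases idx with i | i
  · have := he i.val i.isLt
    rw [eN_val, sf_eB_right] at this
    simpa using this
  · have := hf i.val i.isLt
    rw [fN_val, sf_fB_right] at this
    simpa using this

/-- A matrix killing the standard basis is zero. -/
lemma mat_eq_zero_of_basis {M : Matrix (Fin m ⊕ Fin m) (Fin m ⊕ Fin m) F}
    (he : ∀ j, j < m → M *ᵥ eN m F j = 0) (hf : ∀ j, j < m → M *ᵥ fN m F j = 0) : M = 0 := by
  ext i j
  rcases j with j | j
  · have := congrFun (hf j.val j.isLt) i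
    rw [fN_val] at this
    simpa [fB, Matrix.mulVec, dotProduct, Pi.single_apply] using this
  · have := congrFun (he j.val j.isLt) i
    rw [eN_val] at this
    simpa [eB, Matrix.mulVec, dotProduct, Pi.single_apply] using this

/-- The partial sums `e_0 + … + e_k`. -/
def sN (m : ℕ) (F : Type*) [Field F] (k : ℕ) : Fin m ⊕ Fin m → F :=
  ∑ i ∈ Finset.range (k + 1), eN m F i

lemma sN_zero : sN m F 0 = eN m F 0 := by
  simp [sN]

lemma sN_succ (k : ℕ) : sN m F (k + 1) = sN m F k + eN m F (k + 1) :=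
  Finset.sum_range_succ _ _

lemma sf_eN_sN (i k : ℕ) : sympForm m F (eN m F i) (sN m F k) = 0 := by
  unfold sN
  rw [sf_sum_right]
  exact Finset.sum_eq_zero (fun j _ => sf_eN_eN i j)

lemma sf_sN_eN (k i : ℕ) : sympForm m F (sN m F k) (eN m F i) = 0 := by
  rw [sf_swap, sf_eN_sN, neg_zero]

lemma sf_sN_sN (k i : ℕ) : sympForm m F (sN m F k) (sN m F i) = 0 := by
  unfold sN
  rw [sf_sum_right]
  apply Finset.sum_eq_zero
  intro j _
  exact sf_sN_eN k j

lemma sf_fN_sN (j k : ℕ) :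
    sympForm m F (fN m F j) (sN m F k) = if j ≤ k ∧ j < m then -1 else 0 := by
  induction k with
  | zero =>
    rw [sN_zero, sf_fN_eN]
    by_cases h : j = 0 ∧ j < m
    · rw [if_pos h, if_pos ⟨by omega, h.2⟩]
    · rw [if_neg h, if_neg (fun h' => h ⟨by omega, h'.2⟩)]
  | succ k ih =>
    rw [sN_succ, sf_add_right, ih, sf_fN_eN]
    by_cases hm : j < m
    · by_cases h1 : j ≤ k
      · rw [if_pos ⟨h1, hm⟩, if_neg (fun h' => by omega), if_pos ⟨by omega, hm⟩, add_zero]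
      · by_cases h2 : j = k + 1
        · rw [if_neg (fun h' => h1 h'.1), if_pos ⟨h2, hm⟩, if_pos ⟨by omega, hm⟩, zero_add]
        · rw [if_neg (fun h' => h1 h'.1), if_neg (fun h' => h2 h'.1),
            if_neg (fun h' => by omega), add_zero]
    · rw [if_neg (fun h' => hm h'.2), if_neg (fun h' => hm h'.2), if_neg (fun h' => hm h'.2),
        add_zero]

/-! ### The element -/

/-- The short simple root elements. -/
noncomputable def xN (m : ℕ) (F : Type*) [Field F] (k : ℕ) : GL (Fin m ⊕ Fin m) F :=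
  siegelSp m (eN m F k) (fN m F (k + 1))

lemma xN_mulVec (k : ℕ) (x : Fin m ⊕ Fin m → F) :
    ((xN m F k : GL (Fin m ⊕ Fin m) F) : Matrix (Fin m ⊕ Fin m) (Fin m ⊕ Fin m) F) *ᵥ x
      = x + sympForm m F x (eN m F k) • fN m F (k + 1)
        + sympForm m F x (fN m F (k + 1)) • eN m F k := by
  unfold xN
  rw [siegelSp_mulVec _ _ (sf_eN_fN_ne (by omega))]

lemma xN_mem (k : ℕ) : xN m F k ∈ spGL m F := siegelSp_mem _ _

lemma xN_eN (k j : ℕ) :
    ((xN m F k : GL (Fin m ⊕ Fin m) F) : Matrix (Fin m ⊕ Fin m) (Fin m ⊕ Fin m) F) *ᵥ eN m F j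
      = if j = k + 1 ∧ j < m then eN m F j + eN m F k else eN m F j := by
  rw [xN_mulVec, sf_eN_eN, zero_smul, add_zero, sf_eN_fN]
  by_cases h : j = k + 1 ∧ j < m
  · rw [if_pos h, if_pos h, one_smul]
  · rw [if_neg h, if_neg h, zero_smul, add_zero]

lemma xN_fN (k j : ℕ) :
    ((xN m F k : GL (Fin m ⊕ Fin m) F) : Matrix (Fin m ⊕ Fin m) (Fin m ⊕ Fin m) F) *ᵥ fN m F j
      = if j = k then fN m F j - fN m F (k + 1) else fN m F j := by
  rw [xN_mulVec, sf_fN_fN, zero_smul, add_zero, sf_fN_eN]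
  by_cases h : j = k
  · rw [if_pos h]
    by_cases hm : j < m
    · rw [if_pos ⟨h, hm⟩, neg_one_smul, sub_eq_add_neg]
    · rw [if_neg (fun h' => hm h'.2), zero_smul, add_zero,
        fN_of_ge (show m ≤ k + 1 by omega), sub_zero]
  · rw [if_neg h, if_neg (fun h' => h h'.1), zero_smul, add_zero]

/-- The product of the first `k` short simple root elements. -/
noncomputable def wN (m : ℕ) (F : Type*) [Field F] : ℕ → GL (Fin m ⊕ Fin m) F
  | 0 => 1
  | k + 1 => wN m F k * xN m F k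

lemma wN_mem (k : ℕ) : wN m F k ∈ spGL m F := by
  induction k with
  | zero => exact (spGL m F).one_mem
  | succ k ih => exact (spGL m F).mul_mem ih (xN_mem k)

lemma wN_eN (k j : ℕ) (hj : j < m) :
    ((wN m F k : GL (Fin m ⊕ Fin m) F) : Matrix (Fin m ⊕ Fin m) (Fin m ⊕ Fin m) F) *ᵥ eN m F j
      = if j ≤ k then sN m F j else eN m F j := by
  induction k generalizing j with
  | zero =>
    show ((1 : GL (Fin m ⊕ Fin m) F) : Matrix (Fin m ⊕ Fin m) (Fin m ⊕ Fin m) F) *ᵥ _ = _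
    rw [Units.val_one, Matrix.one_mulVec]
    by_cases h : j ≤ 0
    · have : j = 0 := by omega
      rw [if_pos h, this, sN_zero]
    · rw [if_neg h]
  | succ k ih =>
    show ((wN m F k * xN m F k : GL (Fin m ⊕ Fin m) F) :
      Matrix (Fin m ⊕ Fin m) (Fin m ⊕ Fin m) F) *ᵥ _ = _
    rw [gl_mul_mulVec, xN_eN]
    by_cases h : j = k + 1
    · subst h
      rw [if_pos ⟨rfl, hj⟩, Matrix.mulVec_add, ih (k + 1) hj, ih k (by omega),
        if_neg (by omega), if_pos le_rfl, if_pos le_rfl, sN_succ, add_comm]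
    · rw [if_neg (fun h' => h h'.1), ih j hj]
      by_cases h1 : j ≤ k
      · rw [if_pos h1, if_pos (by omega)]
      · rw [if_neg h1, if_neg (by omega)]

lemma wN_fN (k j : ℕ) :
    ((wN m F k : GL (Fin m ⊕ Fin m) F) : Matrix (Fin m ⊕ Fin m) (Fin m ⊕ Fin m) F) *ᵥ fN m F j
      = if j < k then fN m F j - fN m F (j + 1) else fN m F j := by
  induction k generalizing j with
  | zero =>
    show ((1 : GL (Fin m ⊕ Fin m) F) : Matrix (Fin m ⊕ Fin m) (Fin m ⊕ Fin m) F) *ᵥ _ = _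
    rw [Units.val_one, Matrix.one_mulVec, if_neg (by omega)]
  | succ k ih =>
    show ((wN m F k * xN m F k : GL (Fin m ⊕ Fin m) F) :
      Matrix (Fin m ⊕ Fin m) (Fin m ⊕ Fin m) F) *ᵥ _ = _
    rw [gl_mul_mulVec, xN_fN]
    by_cases h : j = k
    · subst h
      rw [if_pos rfl, Matrix.mulVec_sub, ih j, ih (j + 1), if_neg (by omega), if_neg (by omega),
        if_pos (by omega)]
    · rw [if_neg h, ih j]
      by_cases h1 : j < k
      · rw [if_pos h1, if_pos (by omega)]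
      · rw [if_neg h1, if_neg (by omega)]

/-- The regular unipotent element. -/
noncomputable def ruGL (m : ℕ) (F : Type*) [Field F] : GL (Fin m ⊕ Fin m) F :=
  wN m F (m - 1) * sympTransGL m (eN m F (m - 1)) 1

lemma ru_mem : ruGL m F ∈ spGL m F :=
  (spGL m F).mul_mem (wN_mem _) (sympTransGL_mem m _ _)

lemma ru_form (x y : Fin m ⊕ Fin m → F) :
    sympForm m F
      (((ruGL m F : GL (Fin m ⊕ Fin m) F) : Matrix (Fin m ⊕ Fin m) (Fin m ⊕ Fin m) F) *ᵥ x)
      (((ruGL m F : GL (Fin m ⊕ Fin m) F) : Matrix (Fin m ⊕ Fin m) (Fin m ⊕ Fin m) F) *ᵥ y)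
      = sympForm m F x y := (mem_spGL_iff m _).mp ru_mem x y

lemma ru_eN {j : ℕ} (hj : j < m) :
    ((ruGL m F : GL (Fin m ⊕ Fin m) F) : Matrix (Fin m ⊕ Fin m) (Fin m ⊕ Fin m) F) *ᵥ eN m F j
      = sN m F j := by
  unfold ruGL
  rw [gl_mul_mulVec, sympTransGL_mulVec, sf_eN_eN, mul_zero, zero_smul, add_zero, wN_eN _ _ hj,
    if_pos (by omega)]

lemma ru_fN {j : ℕ} (hj : j + 1 < m) :
    ((ruGL m F : GL (Fin m ⊕ Fin m) F) : Matrix (Fin m ⊕ Fin m) (Fin m ⊕ Fin m) F) *ᵥ fN m F j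
      = fN m F j - fN m F (j + 1) := by
  unfold ruGL
  rw [gl_mul_mulVec, sympTransGL_mulVec, sf_fN_eN_ne (by omega), mul_zero, zero_smul, add_zero,
    wN_fN, if_pos (by omega)]

lemma ru_fN_last (hm : 0 < m) :
    ((ruGL m F : GL (Fin m ⊕ Fin m) F) : Matrix (Fin m ⊕ Fin m) (Fin m ⊕ Fin m) F) *ᵥ
        fN m F (m - 1)
      = fN m F (m - 1) - sN m F (m - 1) := by
  unfold ruGL
  rw [gl_mul_mulVec, sympTransGL_mulVec, sf_fN_eN_self (by omega), mul_neg, mul_one,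
    neg_one_smul, Matrix.mulVec_add, Matrix.mulVec_neg, wN_fN, if_neg (by omega),
    wN_eN _ _ (by omega), if_pos le_rfl, sub_eq_add_neg]

lemma ru_eN_zero (hm : 0 < m) :
    ((ruGL m F : GL (Fin m ⊕ Fin m) F) : Matrix (Fin m ⊕ Fin m) (Fin m ⊕ Fin m) F) *ᵥ eN m F 0
      = eN m F 0 := by
  rw [ru_eN hm, sN_zero]

lemma ru_sN {j : ℕ} (hj : j + 1 < m) :
    ((ruGL m F : GL (Fin m ⊕ Fin m) F) : Matrix (Fin m ⊕ Fin m) (Fin m ⊕ Fin m) F) *ᵥ
        sN m F (j + 1)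
      = ((ruGL m F : GL (Fin m ⊕ Fin m) F) : Matrix (Fin m ⊕ Fin m) (Fin m ⊕ Fin m) F) *ᵥ
        sN m F j + sN m F (j + 1) := by
  rw [sN_succ, Matrix.mulVec_add, ru_eN hj, sN_succ]

lemma ru_inv_sN {j : ℕ} (hj : j < m) :
    (((ruGL m F)⁻¹ : GL (Fin m ⊕ Fin m) F) : Matrix (Fin m ⊕ Fin m) (Fin m ⊕ Fin m) F) *ᵥ
        sN m F j = eN m F j := by
  rw [← ru_eN hj, gl_inv_mulVec_mulVec]

lemma ru_inv_eN_succ {j : ℕ} (hj : j + 1 < m) :
    (((ruGL m F)⁻¹ : GL (Fin m ⊕ Fin m) F) : Matrix (Fin m ⊕ Fin m) (Fin m ⊕ Fin m) F) *ᵥ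
        eN m F (j + 1) = eN m F (j + 1) - eN m F j := by
  have : ((ruGL m F : GL (Fin m ⊕ Fin m) F) : Matrix (Fin m ⊕ Fin m) (Fin m ⊕ Fin m) F) *ᵥ
      (eN m F (j + 1) - eN m F j) = eN m F (j + 1) := by
    rw [Matrix.mulVec_sub, ru_eN hj, ru_eN (show j < m by omega), sN_succ]
    abel
  rw [← this, gl_inv_mulVec_mulVec, this]

lemma ru_inv_eN_zero (hm : 0 < m) :
    (((ruGL m F)⁻¹ : GL (Fin m ⊕ Fin m) F) : Matrix (Fin m ⊕ Fin m) (Fin m ⊕ Fin m) F) *ᵥ
        eN m F 0 = eN m F 0 := by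
  have := ru_eN_zero (F := F) hm
  rw [← this, gl_inv_mulVec_mulVec, this]

/-- A property of vectors stable under subtraction and the action of `u^{±1}` spreads from
`f_k` to all later `f_j` and all `e_j`. -/
lemma ru_chain (P : (Fin m ⊕ Fin m → F) → Prop) (hsub : ∀ x y, P x → P y → P (x - y))
    (hu : ∀ x, P x → P (((ruGL m F : GL (Fin m ⊕ Fin m) F) :
      Matrix (Fin m ⊕ Fin m) (Fin m ⊕ Fin m) F) *ᵥ x))
    (hui : ∀ x, P x → P ((((ruGL m F)⁻¹ : GL (Fin m ⊕ Fin m) F) :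
      Matrix (Fin m ⊕ Fin m) (Fin m ⊕ Fin m) F) *ᵥ x))
    (k : ℕ) (hk : k < m) (h0 : P (fN m F k)) :
    (∀ j, k ≤ j → j < m → P (fN m F j)) ∧ (∀ j, j < m → P (eN m F j)) := by
  have hf : ∀ d, k + d < m → P (fN m F (k + d)) := by
    intro d
    induction d with
    | zero => intro _; exact h0
    | succ d ih =>
      intro hd
      have h1 := ih (by omega)
      have h2 := hsub _ _ h1 (hu _ h1)
      rw [ru_fN (show k + d + 1 < m by omega)] at h2
      have e : fN m F (k + d) - (fN m F (k + d) - fN m F (k + d + 1)) = fN m F (k + (d + 1)) := by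
        rw [sub_sub_cancel]
        rfl
      rwa [e] at h2
  have hf' : ∀ j, k ≤ j → j < m → P (fN m F j) := by
    intro j hkj hj
    have := hf (j - k) (by omega)
    rwa [show k + (j - k) = j by omega] at this
  have hlast : P (eN m F (m - 1)) := by
    have h1 := hf' (m - 1) (by omega) (by omega)
    have h2 := hsub _ _ h1 (hu _ h1)
    rw [ru_fN_last (by omega), sub_sub_cancel] at h2
    have h3 := hui _ h2
    rwa [ru_inv_sN (by omega)] at h3
  have he : ∀ d, d < m → P (eN m F (m - 1 - d)) := by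
    intro d
    induction d with
    | zero => intro _; exact hlast
    | succ d ih =>
      intro hd
      have h1 := ih (by omega)
      have e1 : m - 1 - d = (m - 1 - (d + 1)) + 1 := by omega
      rw [e1] at h1
      have h2 := hsub _ _ h1 (hui _ h1)
      rw [ru_inv_eN_succ (by omega), sub_sub_cancel] at h2
      exact h2
  refine ⟨hf', ?_⟩
  intro j hj
  have := he (m - 1 - j) (by omega)
  rwa [show m - 1 - (m - 1 - j) = j by omega] at this

/-! ### Regularity -/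

/-- `u - 1`. -/
noncomputable def ruN (m : ℕ) (F : Type*) [Field F] :
    Matrix (Fin m ⊕ Fin m) (Fin m ⊕ Fin m) F :=
  ((ruGL m F : GL (Fin m ⊕ Fin m) F) : Matrix (Fin m ⊕ Fin m) (Fin m ⊕ Fin m) F) - 1

lemma ruN_mulVec (x : Fin m ⊕ Fin m → F) :
    ruN m F *ᵥ x
      = ((ruGL m F : GL (Fin m ⊕ Fin m) F) : Matrix (Fin m ⊕ Fin m) (Fin m ⊕ Fin m) F) *ᵥ x - x := by
  unfold ruN
  rw [Matrix.sub_mulVec, Matrix.one_mulVec]

lemma ruN_eN_zero (hm : 0 < m) : ruN m F *ᵥ eN m F 0 = 0 := by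
  rw [ruN_mulVec, ru_eN_zero hm, sub_self]

lemma ruN_fN {j : ℕ} (hj : j + 1 < m) : ruN m F *ᵥ fN m F j = - fN m F (j + 1) := by
  rw [ruN_mulVec, ru_fN hj]
  abel

lemma ruN_fN_last (hm : 0 < m) : ruN m F *ᵥ fN m F (m - 1) = - sN m F (m - 1) := by
  rw [ruN_mulVec, ru_fN_last hm]
  abel

lemma ruN_sN_zero (hm : 0 < m) : ruN m F *ᵥ sN m F 0 = 0 := by
  rw [sN_zero, ruN_eN_zero hm]

lemma ruN_sN_succ {j : ℕ} (hj : j + 1 < m) :
    ruN m F *ᵥ sN m F (j + 1) = ruN m F *ᵥ sN m F j + sN m F j := by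
  rw [ruN_mulVec, ruN_mulVec, ru_sN hj, sN_succ]
  abel

lemma ruN_pow_succ_mulVec (k : ℕ) (x : Fin m ⊕ Fin m → F) :
    (ruN m F ^ (k + 1)) *ᵥ x = ruN m F *ᵥ ((ruN m F ^ k) *ᵥ x) := by
  rw [pow_succ', Matrix.mulVec_mulVec]

lemma ruN_pow_succ_mulVec' (k : ℕ) (x : Fin m ⊕ Fin m → F) :
    (ruN m F ^ (k + 1)) *ᵥ x = (ruN m F ^ k) *ᵥ (ruN m F *ᵥ x) := by
  rw [pow_succ, Matrix.mulVec_mulVec]

lemma ruN_pow_sN (j : ℕ) (hj : j < m) : (ruN m F ^ j) *ᵥ sN m F j = eN m F 0 := by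
  induction j with
  | zero => rw [pow_zero, Matrix.one_mulVec, sN_zero]
  | succ j ih =>
    rw [ruN_pow_succ_mulVec', ruN_sN_succ hj, Matrix.mulVec_add, ← ruN_pow_succ_mulVec',
      ruN_pow_succ_mulVec, ih (by omega), ruN_eN_zero (by omega), zero_add]

lemma ruN_pow_sN_zero (j k : ℕ) (hj : j < m) (hk : j + 1 ≤ k) :
    (ruN m F ^ k) *ᵥ sN m F j = 0 := by
  obtain ⟨d, rfl⟩ := Nat.exists_eq_add_of_le hk
  rw [add_comm, pow_add, ← Matrix.mulVec_mulVec, ruN_pow_succ_mulVec, ruN_pow_sN j hj,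
    ruN_eN_zero (by omega), Matrix.mulVec_zero]

lemma ruN_pow_eN (j : ℕ) (hj : j < m) : (ruN m F ^ m) *ᵥ eN m F j = 0 := by
  rcases j with _ | j
  · rw [← sN_zero, ruN_pow_sN_zero 0 m hj (by omega)]
  · have : eN m F (j + 1) = sN m F (j + 1) - sN m F j := by
      rw [sN_succ]
      abel
    rw [this, Matrix.mulVec_sub, ruN_pow_sN_zero (j + 1) m hj (by omega),
      ruN_pow_sN_zero j m (by omega) (by omega), sub_zero]

lemma ruN_pow_fN0 (j : ℕ) (hj : j < m) :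
    (ruN m F ^ j) *ᵥ fN m F 0 = ((-1 : F) ^ j) • fN m F j := by
  induction j with
  | zero => rw [pow_zero, Matrix.one_mulVec, pow_zero, one_smul]
  | succ j ih =>
    rw [ruN_pow_succ_mulVec, ih (by omega), Matrix.mulVec_smul, ruN_fN hj, pow_succ]
    module

lemma ruN_pow_m_fN0 (hm : 0 < m) :
    (ruN m F ^ m) *ᵥ fN m F 0 = ((-1 : F) ^ m) • sN m F (m - 1) := by
  obtain ⟨k, rfl⟩ : ∃ k, m = k + 1 := ⟨m - 1, by omega⟩
  rw [ruN_pow_succ_mulVec, ruN_pow_fN0 k (by omega), Matrix.mulVec_smul]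
  have := ruN_fN_last (F := F) (m := k + 1) (by omega)
  rw [show k + 1 - 1 = k by omega] at this ⊢
  rw [this, pow_succ]
  module

theorem ruN_pow_ne_zero (hm : 0 < m) : ruN m F ^ (2 * m - 1) ≠ 0 := by
  intro h
  have h1 : (ruN m F ^ (2 * m - 1)) *ᵥ fN m F 0 = ((-1 : F) ^ m) • eN m F 0 := by
    rw [show 2 * m - 1 = (m - 1) + m by omega, pow_add, ← Matrix.mulVec_mulVec,
      ruN_pow_m_fN0 hm, Matrix.mulVec_smul, ruN_pow_sN (m - 1) (by omega)]
  rw [h, Matrix.zero_mulVec] at h1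
  have h2 : ((-1 : F) ^ m) • eN m F 0 ≠ 0 := by
    apply smul_ne_zero (pow_ne_zero _ (neg_ne_zero.mpr one_ne_zero))
    rw [eN_of_lt hm]
    exact eB_ne_zero _
  exact h2 h1.symm

theorem ruN_pow_eq_zero (hm : 0 < m) : ruN m F ^ (2 * m) = 0 := by
  apply mat_eq_zero_of_basis
  · intro j hj
    rw [show 2 * m = m + m by omega, pow_add, ← Matrix.mulVec_mulVec, ruN_pow_eN j hj,
      Matrix.mulVec_zero]
  · intro j hj
    have e : fN m F j = ((-1 : F) ^ j) • ((ruN m F ^ j) *ᵥ fN m F 0) := by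
      rw [ruN_pow_fN0 j hj, smul_smul, ← mul_pow]
      simp
    rw [e, Matrix.mulVec_smul, Matrix.mulVec_mulVec, ← pow_add,
      show 2 * m + j = (m + j) + m by omega, pow_add, ← Matrix.mulVec_mulVec,
      ruN_pow_m_fN0 hm, Matrix.mulVec_smul, ruN_pow_sN_zero (m - 1) (m + j) (by omega) (by omega),
      smul_zero, smul_zero]

/-! ### The `m`-th power applied to `f_0` -/

lemma ru_adj_succ {k : ℕ} (hk : k + 1 < m) (v : Fin m ⊕ Fin m → F) :
    sympForm m F (eN m F (k + 1))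
      (((ruGL m F : GL (Fin m ⊕ Fin m) F) : Matrix (Fin m ⊕ Fin m) (Fin m ⊕ Fin m) F) *ᵥ v)
      = sympForm m F (eN m F (k + 1)) v - sympForm m F (eN m F k) v := by
  have : ((ruGL m F : GL (Fin m ⊕ Fin m) F) : Matrix (Fin m ⊕ Fin m) (Fin m ⊕ Fin m) F) *ᵥ
      (eN m F (k + 1) - eN m F k) = eN m F (k + 1) := by
    rw [Matrix.mulVec_sub, ru_eN hk, ru_eN (show k < m by omega), sN_succ]
    abel
  rw [← sf_sub_left, ← ru_form (eN m F (k + 1) - eN m F k) v, this]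

lemma ru_adj_f (v : Fin m ⊕ Fin m → F) (hv : ∀ i, i < m → sympForm m F v (fN m F i) = 0)
    (i : ℕ) (hi : i < m) :
    sympForm m F
      (((ruGL m F : GL (Fin m ⊕ Fin m) F) : Matrix (Fin m ⊕ Fin m) (Fin m ⊕ Fin m) F) *ᵥ v)
      (fN m F i) = sympForm m F v (eN m F (m - 1)) := by
  have key : ∀ d, ∀ i, i + d = m - 1 → sympForm m F
      (((ruGL m F : GL (Fin m ⊕ Fin m) F) : Matrix (Fin m ⊕ Fin m) (Fin m ⊕ Fin m) F) *ᵥ v)
      (fN m F i) = sympForm m F v (eN m F (m - 1)) := by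
    intro d
    induction d with
    | zero =>
      intro i hi'
      have hi2 : i = m - 1 := by omega
      subst hi2
      have e : fN m F (m - 1)
          = ((ruGL m F : GL (Fin m ⊕ Fin m) F) : Matrix (Fin m ⊕ Fin m) (Fin m ⊕ Fin m) F) *ᵥ
            (fN m F (m - 1) + eN m F (m - 1)) := by
        rw [Matrix.mulVec_add, ru_fN_last (by omega), ru_eN (by omega)]
        abel
      rw [e, ru_form, sf_add_right, hv _ (by omega), zero_add]
    | succ d ih =>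
      intro i hi'
      have e : fN m F i
          = ((ruGL m F : GL (Fin m ⊕ Fin m) F) : Matrix (Fin m ⊕ Fin m) (Fin m ⊕ Fin m) F) *ᵥ
            fN m F i + fN m F (i + 1) := by
        rw [ru_fN (by omega)]
        abel
      rw [e, sf_add_right, ru_form, hv _ (by omega), zero_add]
      exact ih (i + 1) (by omega)
  exact key (m - 1 - i) i (by omega)

/-- The components of `u^m f_0` along the `e_i` all equal `(-1)^m`. -/
theorem ru_pow_fN0 (hm : 0 < m) (i : ℕ) (hi : i < m) :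
    sympForm m F
      (((ruGL m F ^ m : GL (Fin m ⊕ Fin m) F) : Matrix (Fin m ⊕ Fin m) (Fin m ⊕ Fin m) F) *ᵥ
        fN m F 0) (fN m F i) = (-1 : F) ^ m := by
  have inv : ∀ j, j < m →
      (∀ i, i < m → sympForm m F
        (((ruGL m F ^ j : GL (Fin m ⊕ Fin m) F) : Matrix (Fin m ⊕ Fin m) (Fin m ⊕ Fin m) F) *ᵥ
          fN m F 0) (fN m F i) = 0) ∧
      (∀ k, j < k → k < m → sympForm m F (eN m F k)
        (((ruGL m F ^ j : GL (Fin m ⊕ Fin m) F) : Matrix (Fin m ⊕ Fin m) (Fin m ⊕ Fin m) F) *ᵥ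
          fN m F 0) = 0) ∧
      sympForm m F (eN m F j)
        (((ruGL m F ^ j : GL (Fin m ⊕ Fin m) F) : Matrix (Fin m ⊕ Fin m) (Fin m ⊕ Fin m) F) *ᵥ
          fN m F 0) = (-1 : F) ^ j := by
    intro j
    induction j with
    | zero =>
      intro _
      rw [pow_zero, Units.val_one, Matrix.one_mulVec]
      refine ⟨fun i _ => sf_fN_fN 0 i, fun k hk _ => sf_eN_fN_ne (by omega), ?_⟩
      rw [sf_eN_fN_self hm, pow_zero]
    | succ j ih =>
      intro hj
      obtain ⟨h1, h2, h3⟩ := ih (by omega)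
      rw [pow_succ', gl_mul_mulVec]
      refine ⟨?_, ?_, ?_⟩
      · intro i hi
        rw [ru_adj_f _ h1 i hi, sf_swap, h2 (m - 1) (by omega) (by omega), neg_zero]
      · intro k hk hkm
        obtain ⟨k', rfl⟩ : ∃ k', k = k' + 1 := ⟨k - 1, by omega⟩
        rw [ru_adj_succ hkm, h2 (k' + 1) (by omega) hkm, h2 k' (by omega) (by omega), sub_zero]
      · rw [ru_adj_succ hj, h2 (j + 1) (by omega) hj, h3, pow_succ]
        ring
  obtain ⟨k, rfl⟩ : ∃ k, m = k + 1 := ⟨m - 1, by omega⟩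
  obtain ⟨h1, h2, h3⟩ := inv k (by omega)
  rw [pow_succ', gl_mul_mulVec, ru_adj_f _ h1 i hi, sf_swap, show k + 1 - 1 = k by omega, h3,
    pow_succ]
  ring

end Cfsg.Agent.Lib.Helper94.SpRU
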