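import Cfsg.Agent.Lib.Helper94.SpRU.RegUnip

set_option autoImplicit false
set_option linter.unusedSectionVars false
set_option linter.unusedSimpArgs false

/-!
# Three conjugates of the regular unipotent element over a prime field

`u`, its conjugate `u⁻` under the Weyl element `J`, and a third conjugate differing from `u⁻` by
a long root element generate the symplectic group over a prime field.
-/

namespace Cfsg.Agent.Lib.Helper94.SpRU

open Cfsg Cfsg.Geo Cfsg.Agent.Lib.Helper94 Cfsg.Agent.Lib.Helper94.SpGen2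
open scoped MatrixGroups Matrix

variable {F : Type*} [Field F] {m : ℕ}

/-! ### The Weyl element `e_i ↦ f_i`, `f_i ↦ -e_i` -/

/-- `e_i ↦ f_i`, `f_i ↦ -e_i` as a linear map. -/
def jLin (m : ℕ) (F : Type*) [Field F] : (Fin m ⊕ Fin m → F) →ₗ[F] (Fin m ⊕ Fin m → F) where
  toFun z := Sum.elim (fun i => z (Sum.inr i)) (fun i => - z (Sum.inl i))
  map_add' x y := by
    funext idx
    rcases idx with i | i <;> simp <;> ring
  map_smul' c x := by
    funext idx
    rcases idx with i | i <;> simp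

/-- Its inverse. -/
def jInvLin (m : ℕ) (F : Type*) [Field F] : (Fin m ⊕ Fin m → F) →ₗ[F] (Fin m ⊕ Fin m → F) where
  toFun z := Sum.elim (fun i => - z (Sum.inr i)) (fun i => z (Sum.inl i))
  map_add' x y := by
    funext idx
    rcases idx with i | i <;> simp <;> ring
  map_smul' c x := by
    funext idx
    rcases idx with i | i <;> simp

/-- The Weyl element as an invertible matrix. -/
noncomputable def jGL (m : ℕ) (F : Type*) [Field F] : GL (Fin m ⊕ Fin m) F :=
  glOfLin (jLin m F) (jInvLin m F)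
    (by
      apply LinearMap.ext
      intro z
      funext idx
      rcases idx with i | i <;> simp [jLin, jInvLin])
    (by
      apply LinearMap.ext
      intro z
      funext idx
      rcases idx with i | i <;> simp [jLin, jInvLin])

lemma jGL_mulVec (z : Fin m ⊕ Fin m → F) :
    ((jGL m F : GL (Fin m ⊕ Fin m) F) : Matrix (Fin m ⊕ Fin m) (Fin m ⊕ Fin m) F) *ᵥ z
      = jLin m F z := by
  rw [jGL, glOfLin_mulVec]

lemma jGL_mem : jGL m F ∈ spGL m F := by
  rw [mem_spGL_iff]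
  intro x y
  rw [jGL_mulVec, jGL_mulVec, sf_eq, sf_eq]
  apply Finset.sum_congr rfl
  intro i _
  simp only [jLin, LinearMap.coe_mk, AddHom.coe_mk, Sum.elim_inl, Sum.elim_inr]
  ring

lemma j_eN (k : ℕ) :
    ((jGL m F : GL (Fin m ⊕ Fin m) F) : Matrix (Fin m ⊕ Fin m) (Fin m ⊕ Fin m) F) *ᵥ eN m F k
      = fN m F k := by
  rw [jGL_mulVec]
  funext idx
  rcases idx with i | i
  · simp [jLin, eN_inr, fN_inl]
  · simp [jLin, eN_inl, fN_inr]

lemma j_fN (k : ℕ) :
    ((jGL m F : GL (Fin m ⊕ Fin m) F) : Matrix (Fin m ⊕ Fin m) (Fin m ⊕ Fin m) F) *ᵥ fN m F k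
      = - eN m F k := by
  rw [jGL_mulVec]
  funext idx
  rcases idx with i | i
  · simp [jLin, eN_inl, fN_inr]
  · simp [jLin, eN_inr, fN_inl]

lemma jinv_fN (k : ℕ) :
    (((jGL m F)⁻¹ : GL (Fin m ⊕ Fin m) F) : Matrix (Fin m ⊕ Fin m) (Fin m ⊕ Fin m) F) *ᵥ
      fN m F k = eN m F k := by
  rw [← j_eN, gl_inv_mulVec_mulVec]

lemma jinv_eN (k : ℕ) :
    (((jGL m F)⁻¹ : GL (Fin m ⊕ Fin m) F) : Matrix (Fin m ⊕ Fin m) (Fin m ⊕ Fin m) F) *ᵥ
      eN m F k = - fN m F k := by
  have : ((jGL m F : GL (Fin m ⊕ Fin m) F) : Matrix (Fin m ⊕ Fin m) (Fin m ⊕ Fin m) F) *ᵥ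
      (- fN m F k) = eN m F k := by
    rw [Matrix.mulVec_neg, j_fN, neg_neg]
  rw [← this, gl_inv_mulVec_mulVec]

lemma j_sN_succ (k : ℕ) :
    ((jGL m F : GL (Fin m ⊕ Fin m) F) : Matrix (Fin m ⊕ Fin m) (Fin m ⊕ Fin m) F) *ᵥ
        sN m F (k + 1)
      = ((jGL m F : GL (Fin m ⊕ Fin m) F) : Matrix (Fin m ⊕ Fin m) (Fin m ⊕ Fin m) F) *ᵥ
        sN m F k + fN m F (k + 1) := by
  rw [sN_succ, Matrix.mulVec_add, j_eN]

/-- The opposite regular unipotent element. -/
noncomputable def umGL (m : ℕ) (F : Type*) [Field F] : GL (Fin m ⊕ Fin m) F :=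
  jGL m F * ruGL m F * (jGL m F)⁻¹

lemma um_mem : umGL m F ∈ spGL m F :=
  (spGL m F).mul_mem ((spGL m F).mul_mem jGL_mem ru_mem) ((spGL m F).inv_mem jGL_mem)

lemma um_fN {j : ℕ} (hj : j < m) :
    ((umGL m F : GL (Fin m ⊕ Fin m) F) : Matrix (Fin m ⊕ Fin m) (Fin m ⊕ Fin m) F) *ᵥ fN m F j
      = ((jGL m F : GL (Fin m ⊕ Fin m) F) : Matrix (Fin m ⊕ Fin m) (Fin m ⊕ Fin m) F) *ᵥ
        sN m F j := by
  unfold umGL
  rw [gl_mul_mulVec, gl_mul_mulVec, jinv_fN, ru_eN hj]

lemma um_eN {j : ℕ} (hj : j + 1 < m) :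
    ((umGL m F : GL (Fin m ⊕ Fin m) F) : Matrix (Fin m ⊕ Fin m) (Fin m ⊕ Fin m) F) *ᵥ eN m F j
      = eN m F j - eN m F (j + 1) := by
  unfold umGL
  rw [gl_mul_mulVec, gl_mul_mulVec, jinv_eN, Matrix.mulVec_neg, ru_fN hj, Matrix.mulVec_neg,
    Matrix.mulVec_sub, j_fN, j_fN]
  abel

/-! ### Propagation -/

/-- Two hyperbolic planes of the standard decomposition are linked by a centre. -/
def Linked (K : Subgroup (GL (Fin m ⊕ Fin m) F)) (a b : Fin m) : Prop :=
  ∃ x₀ ∈ blk a, ∃ y₀ ∈ blk b, x₀ ≠ 0 ∧ y₀ ≠ 0 ∧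
    (x₀ + y₀ : Fin m ⊕ Fin m → F) ∈ transCenters K

lemma blk_mem_transCenters (K : Subgroup (GL (Fin m ⊕ Fin m) F))
    (he : ∀ i : Fin m, (eB i : Fin m ⊕ Fin m → F) ∈ transCenters K)
    (hf : ∀ i : Fin m, (fB i : Fin m ⊕ Fin m → F) ∈ transCenters K) (i : Fin m) :
    ∀ d ∈ blk i, (d : Fin m ⊕ Fin m → F) ∈ transCenters K := by
  intro d hd
  obtain ⟨α, β, rfl⟩ := (mem_blk i d).mp hd
  by_cases hα : α = 0
  · rw [hα, zero_smul, zero_add]
    exact smul_mem_transCenters K (hf i) β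
  by_cases hβ : β = 0
  · rw [hβ, zero_smul, add_zero]
    exact smul_mem_transCenters K (he i) α
  refine add_mem_transCenters K (smul_mem_transCenters K (he i) α)
    (smul_mem_transCenters K (hf i) β) ?_
  have : sympForm m F (α • eB i) (β • fB i) = α * β := by
    rw [sf_smul_left, sf_smul_right, sf_fB_right, eB_inr, if_pos rfl]
    ring
  rw [this]
  exact mul_ne_zero hα hβ

lemma linked_trans (K : Subgroup (GL (Fin m ⊕ Fin m) F))
    (he : ∀ i : Fin m, (eB i : Fin m ⊕ Fin m → F) ∈ transCenters K)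
    (hf : ∀ i : Fin m, (fB i : Fin m ⊕ Fin m → F) ∈ transCenters K) {a b c : Fin m}
    (hab : a ≠ b) (hbc : b ≠ c) (hac : a ≠ c) (h1 : Linked K a b) (h2 : Linked K b c) :
    Linked K a c := by
  have hD := blk_mem_transCenters K he hf
  obtain ⟨x₁, hx₁, y₁, hy₁, hx₁0, hy₁0, h1⟩ := h1
  obtain ⟨x₂, hx₂, y₂, hy₂, hx₂0, hy₂0, h2⟩ := h2
  have p1 : ∀ x ∈ blk a, ∀ y ∈ blk b, (x + y : Fin m ⊕ Fin m → F) ∈ transCenters K :=
    fun x hx y hy => pair_mem_transCenters K (blk a) (blk b) (hD a) (hD b) (blk_orth a b hab)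
      (blk_nondeg a) (blk_nondeg b) hx₁ hy₁ hx₁0 hy₁0 h1 hx hy
  have p2 : ∀ x ∈ blk b, ∀ y ∈ blk c, (x + y : Fin m ⊕ Fin m → F) ∈ transCenters K :=
    fun x hx y hy => pair_mem_transCenters K (blk b) (blk c) (hD b) (hD c) (blk_orth b c hbc)
      (blk_nondeg b) (blk_nondeg c) hx₂ hy₂ hx₂0 hy₂0 h2 hx hy
  have hA : (eB a + eB b : Fin m ⊕ Fin m → F) ∈ transCenters K :=
    p1 _ (eB_mem_blk a) _ (eB_mem_blk b)
  have hB : (fB b + eB c : Fin m ⊕ Fin m → F) ∈ transCenters K :=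
    p2 _ (fB_mem_blk b) _ (eB_mem_blk c)
  have hba : ¬ b = a := fun h => hab h.symm
  have hcb : ¬ c = b := fun h => hbc h.symm
  have hca : ¬ c = a := fun h => hac h.symm
  have hX : (eB a + eB b + (fB b + eB c) : Fin m ⊕ Fin m → F) ∈ transCenters K := by
    refine add_mem_transCenters K hA hB ?_
    simp only [sf_add_left, sf_eB_left, Pi.add_apply, fB_inl, eB_inl, if_neg hab, if_pos rfl]
    simp
  have hC : ((- eB b - fB b) + fB c : Fin m ⊕ Fin m → F) ∈ transCenters K :=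
    p2 _ (Submodule.sub_mem _ (Submodule.neg_mem _ (eB_mem_blk b)) (fB_mem_blk b)) _
      (fB_mem_blk c)
  have hXC : sympForm m F (eB a + eB b + (fB b + eB c) : Fin m ⊕ Fin m → F)
      ((- eB b - fB b) + fB c) ≠ 0 := by
    simp only [sf_add_left, sf_eB_left, sf_fB_left, Pi.add_apply, Pi.sub_apply, Pi.neg_apply,
      fB_inl, eB_inl, fB_inr, eB_inr, if_neg hab, if_neg hac, if_neg hbc, if_neg hcb,
      if_pos rfl]
    simp
  have hsum := add_mem_transCenters K hX hC hXC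
  have e : (eB a + eB b + (fB b + eB c) + ((- eB b - fB b) + fB c) : Fin m ⊕ Fin m → F)
      = eB a + (eB c + fB c) := by abel
  rw [e] at hsum
  refine ⟨eB a, eB_mem_blk a, eB c + fB c, (blk c).add_mem (eB_mem_blk c) (fB_mem_blk c),
    eB_ne_zero a, ?_, hsum⟩
  intro h0
  have := congrFun h0 (Sum.inr c)
  simp [eB_inr, fB_inr] at this

/-- **Propagation**: `u`, the opposite element and one long root group give all centres. -/
theorem chain_all (hm : 0 < m) (K : Subgroup (GL (Fin m ⊕ Fin m) F))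
    (hu : ruGL m F ∈ K) (hum : umGL m F ∈ K)
    (hf0 : fN m F 0 ∈ transCenters K) :
    ∀ v : Fin m ⊕ Fin m → F, v ∈ transCenters K := by
  have hui : (ruGL m F)⁻¹ ∈ K := K.inv_mem hu
  have huiS : (ruGL m F)⁻¹ ∈ spGL m F := (spGL m F).inv_mem ru_mem
  have humi : (umGL m F)⁻¹ ∈ K := K.inv_mem hum
  have humiS : (umGL m F)⁻¹ ∈ spGL m F := (spGL m F).inv_mem um_mem
  have neg_mem : ∀ {v : Fin m ⊕ Fin m → F}, v ∈ transCenters K → -v ∈ transCenters K := by
    intro v hv
    have := smul_mem_transCenters K hv (-1)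
    rwa [neg_one_smul] at this
  -- the `f_j`
  have hfall : ∀ j, j < m → fN m F j ∈ transCenters K := by
    intro j
    induction j with
    | zero => intro _; exact hf0
    | succ j ih =>
      intro hj
      have h1 := mulVec_mem_transCenters K _ hu ru_mem (ih (by omega))
      rw [ru_fN hj] at h1
      have h2 := mulVec_mem_transCenters K _ hum um_mem h1
      rw [Matrix.mulVec_sub, um_fN (by omega), um_fN hj, j_sN_succ] at h2
      have h3 := neg_mem h2
      have e : -(((jGL m F : GL (Fin m ⊕ Fin m) F) :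
          Matrix (Fin m ⊕ Fin m) (Fin m ⊕ Fin m) F) *ᵥ sN m F j
          - (((jGL m F : GL (Fin m ⊕ Fin m) F) :
          Matrix (Fin m ⊕ Fin m) (Fin m ⊕ Fin m) F) *ᵥ sN m F j + fN m F (j + 1)))
          = fN m F (j + 1) := by abel
      rwa [e] at h3
  have hadj : ∀ j, j + 1 < m → fN m F j - fN m F (j + 1) ∈ transCenters K := by
    intro j hj
    have h1 := mulVec_mem_transCenters K _ hu ru_mem (hfall j (by omega))
    rwa [ru_fN hj] at h1
  -- the last `e`
  have hs : sN m F (m - 1) ∈ transCenters K := by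
    have h1 := mulVec_mem_transCenters K _ hu ru_mem (hfall (m - 1) (by omega))
    rw [ru_fN_last hm] at h1
    have h0 := neg_mem (hfall (m - 1) (by omega))
    have hne : sympForm m F (- fN m F (m - 1)) (fN m F (m - 1) - sN m F (m - 1)) ≠ 0 := by
      rw [sf_neg_left, sf_sub_right, sf_fN_fN, sf_fN_sN, if_pos ⟨le_rfl, by omega⟩]
      simp
    have h2 := neg_mem (add_mem_transCenters K h0 h1 hne)
    have e : -(- fN m F (m - 1) + (fN m F (m - 1) - sN m F (m - 1))) = sN m F (m - 1) := by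
      abel
    rwa [e] at h2
  have hlast : eN m F (m - 1) ∈ transCenters K := by
    have := mulVec_mem_transCenters K _ hui huiS hs
    rwa [ru_inv_sN (by omega)] at this
  have hedown : ∀ d, d < m → eN m F (m - 1 - d) ∈ transCenters K := by
    intro d
    induction d with
    | zero => intro _; exact hlast
    | succ d ih =>
      intro hd
      have h1 := ih (by omega)
      have e1 : m - 1 - d = (m - 1 - (d + 1)) + 1 := by omega
      rw [e1] at h1
      have h2 := neg_mem (mulVec_mem_transCenters K _ hui huiS h1)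
      rw [ru_inv_eN_succ (by omega), neg_sub, ← um_eN (by omega)] at h2
      have h3 := mulVec_mem_transCenters K _ humi humiS h2
      rwa [gl_inv_mulVec_mulVec] at h3
  have heall : ∀ j, j < m → eN m F j ∈ transCenters K := by
    intro j hj
    have := hedown (m - 1 - j) (by omega)
    rwa [show m - 1 - (m - 1 - j) = j by omega] at this
  have he : ∀ i : Fin m, (eB i : Fin m ⊕ Fin m → F) ∈ transCenters K := by
    intro i
    rw [← eN_val]
    exact heall _ i.isLt
  have hf : ∀ i : Fin m, (fB i : Fin m ⊕ Fin m → F) ∈ transCenters K := by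
    intro i
    rw [← fN_val]
    exact hfall _ i.isLt
  -- linking
  have hadjL : ∀ a b : Fin m, a.val + 1 = b.val → Linked K a b := by
    intro a b hab
    refine ⟨fB a, fB_mem_blk a, - fB b, Submodule.neg_mem _ (fB_mem_blk b), fB_ne_zero a,
      neg_ne_zero.mpr (fB_ne_zero b), ?_⟩
    have := hadj a.val (by omega)
    rw [fN_val, hab, fN_val, sub_eq_add_neg] at this
    exact this
  have hlink : ∀ d, ∀ a b : Fin m, a.val + d + 1 = b.val → Linked K a b := by
    intro d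
    induction d with
    | zero =>
      intro a b hab
      exact hadjL a b (by omega)
    | succ d ih =>
      intro a b hab
      have hb' : b.val - 1 < m := by omega
      have h1 : Linked K a ⟨b.val - 1, hb'⟩ := ih a ⟨b.val - 1, hb'⟩ (by
        show a.val + d + 1 = b.val - 1
        omega)
      have h2 : Linked K ⟨b.val - 1, hb'⟩ b := hadjL ⟨b.val - 1, hb'⟩ b (by
        show b.val - 1 + 1 = b.val
        omega)
      refine linked_trans K he hf ?_ ?_ ?_ h1 h2
      · intro h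
        have h' : a.val = b.val - 1 := congrArg Fin.val h
        omega
      · intro h
        have h' : b.val - 1 = b.val := congrArg Fin.val h
        omega
      · intro h
        have h' : a.val = b.val := congrArg Fin.val h
        omega
  have hR : ∀ a b : Fin m, a ≠ b → ∃ x₀ ∈ blk a, ∃ y₀ ∈ blk b, x₀ ≠ 0 ∧ y₀ ≠ 0 ∧
      (x₀ + y₀ : Fin m ⊕ Fin m → F) ∈ transCenters K := by
    intro a b hab
    have hv : a.val ≠ b.val := fun h => hab (Fin.ext h)
    rcases lt_or_gt_of_ne hv with h | h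
    · exact hlink (b.val - a.val - 1) a b (by omega)
    · obtain ⟨y₀, hy₀, x₀, hx₀, hy₀0, hx₀0, h'⟩ := hlink (a.val - b.val - 1) b a (by omega)
      exact ⟨x₀, hx₀, y₀, hy₀, hx₀0, hy₀0, by rw [add_comm x₀ y₀]; exact h'⟩
  exact all_centers K he hf hR

/-! ### The unipotent conjugators -/

/-- `u f_j = f_j - (tail)`. -/
noncomputable def tailN (m : ℕ) (F : Type*) [Field F] (j : ℕ) : Fin m ⊕ Fin m → F :=
  if j + 1 < m then fN m F (j + 1) else sN m F (m - 1)

lemma ru_fN_tail {j : ℕ} (hj : j < m) :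
    ((ruGL m F : GL (Fin m ⊕ Fin m) F) : Matrix (Fin m ⊕ Fin m) (Fin m ⊕ Fin m) F) *ᵥ fN m F j
      = fN m F j - tailN m F j := by
  unfold tailN
  split_ifs with h
  · exact ru_fN h
  · have : j = m - 1 := by omega
    rw [this]
    exact ru_fN_last (by omega)

lemma sf_tailN_eN (j i : ℕ) (h : i ≤ j) : sympForm m F (tailN m F j) (eN m F i) = 0 := by
  unfold tailN
  split_ifs
  · exact sf_fN_eN_ne (by omega)
  · exact sf_sN_eN _ _

/-- The conjugator for rank at least three. -/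
noncomputable def zB (m : ℕ) (F : Type*) [Field F] : GL (Fin m ⊕ Fin m) F :=
  sympTransGL m (eN m F 1) 1 * siegelSp m (eN m F 0) (- eN m F 2)

lemma zB_mem : zB m F ∈ spGL m F :=
  (spGL m F).mul_mem (sympTransGL_mem m _ _) (siegelSp_mem _ _)

lemma zB_mulVec (x : Fin m ⊕ Fin m → F) :
    ((zB m F : GL (Fin m ⊕ Fin m) F) : Matrix (Fin m ⊕ Fin m) (Fin m ⊕ Fin m) F) *ᵥ x
      = x - sympForm m F x (eN m F 0) • eN m F 2 - sympForm m F x (eN m F 2) • eN m F 0
        + sympForm m F x (eN m F 1) • eN m F 1 := by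
  unfold zB
  have h02 : sympForm m F (eN m F 0) (- eN m F 2) = 0 := by
    rw [sf_neg_right, sf_eN_eN, neg_zero]
  rw [gl_mul_mulVec, siegelSp_mulVec _ _ h02, sympTransGL_mulVec]
  simp only [sf_add_left, sf_smul_left, sf_neg_right, sf_neg_left, sf_eN_eN]
  module

lemma zB_fix {x : Fin m ⊕ Fin m → F} (h0 : sympForm m F x (eN m F 0) = 0)
    (h1 : sympForm m F x (eN m F 1) = 0) (h2 : sympForm m F x (eN m F 2) = 0) :
    ((zB m F : GL (Fin m ⊕ Fin m) F) : Matrix (Fin m ⊕ Fin m) (Fin m ⊕ Fin m) F) *ᵥ x = x := by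
  rw [zB_mulVec, h0, h1, h2]
  module

lemma zB_fN0 (hm : 3 ≤ m) :
    ((zB m F : GL (Fin m ⊕ Fin m) F) : Matrix (Fin m ⊕ Fin m) (Fin m ⊕ Fin m) F) *ᵥ fN m F 0
      = fN m F 0 + eN m F 2 := by
  rw [zB_mulVec, sf_fN_eN_self (show 0 < m by omega), sf_fN_eN_ne (show (0 : ℕ) ≠ 2 by omega),
    sf_fN_eN_ne (show (0 : ℕ) ≠ 1 by omega)]
  module

lemma zB_fN1 (hm : 3 ≤ m) :
    ((zB m F : GL (Fin m ⊕ Fin m) F) : Matrix (Fin m ⊕ Fin m) (Fin m ⊕ Fin m) F) *ᵥ fN m F 1
      = fN m F 1 - eN m F 1 := by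
  rw [zB_mulVec, sf_fN_eN_self (show 1 < m by omega), sf_fN_eN_ne (show (1 : ℕ) ≠ 2 by omega),
    sf_fN_eN_ne (show (1 : ℕ) ≠ 0 by omega)]
  module

lemma zB_fN2 (hm : 3 ≤ m) :
    ((zB m F : GL (Fin m ⊕ Fin m) F) : Matrix (Fin m ⊕ Fin m) (Fin m ⊕ Fin m) F) *ᵥ fN m F 2
      = fN m F 2 + eN m F 0 := by
  rw [zB_mulVec, sf_fN_eN_self (show 2 < m by omega), sf_fN_eN_ne (show (2 : ℕ) ≠ 0 by omega),
    sf_fN_eN_ne (show (2 : ℕ) ≠ 1 by omega)]
  module

lemma sN_one : sN m F 1 = eN m F 0 + eN m F 1 := by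
  simp [sN, Finset.sum_range_succ]

lemma sN_two : sN m F 2 = eN m F 0 + eN m F 1 + eN m F 2 := by
  simp [sN, Finset.sum_range_succ]

lemma ru_fN0 (hm : 1 < m) :
    ((ruGL m F : GL (Fin m ⊕ Fin m) F) : Matrix (Fin m ⊕ Fin m) (Fin m ⊕ Fin m) F) *ᵥ fN m F 0
      = fN m F 0 - fN m F 1 := ru_fN (j := 0) hm

lemma ru_fN1 (hm : 2 < m) :
    ((ruGL m F : GL (Fin m ⊕ Fin m) F) : Matrix (Fin m ⊕ Fin m) (Fin m ⊕ Fin m) F) *ᵥ fN m F 1
      = fN m F 1 - fN m F 2 := ru_fN (j := 1) hm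

/-- `z u z⁻¹ = u T_{e_0}(1)` for `m ≥ 3`. -/
theorem trickB (hm : 3 ≤ m) :
    zB m F * ruGL m F * (zB m F)⁻¹ = ruGL m F * sympTransGL m (eN m F 0) 1 := by
  have key : zB m F * ruGL m F = ruGL m F * sympTransGL m (eN m F 0) 1 * zB m F := by
    apply gl_ext_N
    · intro j hj
      rw [gl_mul_mulVec, gl_mul_mulVec, gl_mul_mulVec, ru_eN hj,
        zB_fix (sf_eN_eN _ _) (sf_eN_eN _ _) (sf_eN_eN _ _),
        zB_fix (sf_sN_eN _ _) (sf_sN_eN _ _) (sf_sN_eN _ _), sympTransGL_mulVec, sf_eN_eN,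
        mul_zero, zero_smul, add_zero, ru_eN hj]
    · intro j hj
      rw [gl_mul_mulVec, gl_mul_mulVec, gl_mul_mulVec]
      by_cases h0 : j = 0
      · -- `f_0`
        subst h0
        rw [ru_fN0 (by omega), Matrix.mulVec_sub, zB_fN0 hm, zB_fN1 hm, sympTransGL_mulVec,
          sf_add_left, sf_fN_eN_self (show 0 < m by omega), sf_eN_eN, Matrix.mulVec_add,
          Matrix.mulVec_add, Matrix.mulVec_smul, ru_fN0 (by omega), ru_eN (show 2 < m by omega),
          ru_eN (show 0 < m by omega), sN_two, sN_zero]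
        module
      by_cases h1 : j = 1
      · -- `f_1`
        subst h1
        rw [ru_fN1 (by omega), Matrix.mulVec_sub, zB_fN1 hm, zB_fN2 hm, sympTransGL_mulVec,
          sf_sub_left, sf_fN_eN_ne (show (1 : ℕ) ≠ 0 by omega), sf_eN_eN, Matrix.mulVec_add,
          Matrix.mulVec_sub, Matrix.mulVec_smul, ru_fN1 (by omega), ru_eN (show 1 < m by omega),
          ru_eN (show 0 < m by omega), sN_one, sN_zero]
        module
      by_cases h2 : j = 2
      · -- `f_2`
        subst h2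
        rw [ru_fN_tail hj, Matrix.mulVec_sub,
          zB_fix (x := tailN m F 2) (sf_tailN_eN _ _ (by omega))
            (sf_tailN_eN _ _ (by omega)) (sf_tailN_eN _ _ (by omega)), zB_fN2 hm,
          sympTransGL_mulVec, sf_add_left, sf_fN_eN_ne (show (2 : ℕ) ≠ 0 by omega), sf_eN_eN,
          Matrix.mulVec_add, Matrix.mulVec_add, Matrix.mulVec_smul, ru_fN_tail hj,
          ru_eN (show 0 < m by omega), sN_zero]
        module
      · -- `f_j`, `j ≥ 3`
        rw [ru_fN_tail hj, Matrix.mulVec_sub,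
          zB_fix (x := tailN m F j) (sf_tailN_eN _ _ (by omega))
            (sf_tailN_eN _ _ (by omega)) (sf_tailN_eN _ _ (by omega)),
          zB_fix (x := fN m F j) (sf_fN_eN_ne (by omega)) (sf_fN_eN_ne (by omega))
            (sf_fN_eN_ne (by omega)), sympTransGL_mulVec, sf_fN_eN_ne (by omega), mul_zero,
          zero_smul, add_zero, ru_fN_tail hj]
  rw [key]
  group

/-- The conjugator for rank two. -/
noncomputable def zA (m : ℕ) (F : Type*) [Field F] : GL (Fin m ⊕ Fin m) F :=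
  siegelSp m (eN m F 0) (eN m F 1)

lemma zA_mem : zA m F ∈ spGL m F := siegelSp_mem _ _

lemma zA_mulVec (x : Fin m ⊕ Fin m → F) :
    ((zA m F : GL (Fin m ⊕ Fin m) F) : Matrix (Fin m ⊕ Fin m) (Fin m ⊕ Fin m) F) *ᵥ x
      = x + sympForm m F x (eN m F 0) • eN m F 1 + sympForm m F x (eN m F 1) • eN m F 0 := by
  unfold zA
  rw [siegelSp_mulVec _ _ (sf_eN_eN _ _)]

/-- `z u z⁻¹ = u T_{e_0}(-2)` for `m = 2`. -/
theorem trickA :
    zA 2 F * ruGL 2 F * (zA 2 F)⁻¹ = ruGL 2 F * sympTransGL 2 (eN 2 F 0) (-2) := by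
  have hl : ((ruGL 2 F : GL (Fin 2 ⊕ Fin 2) F) : Matrix (Fin 2 ⊕ Fin 2) (Fin 2 ⊕ Fin 2) F) *ᵥ
      fN 2 F 1 = fN 2 F 1 - sN 2 F 1 := ru_fN_last (F := F) (m := 2) (by omega)
  have key : zA 2 F * ruGL 2 F = ruGL 2 F * sympTransGL 2 (eN 2 F 0) (-2) * zA 2 F := by
    apply gl_ext_N
    · intro j hj
      rw [gl_mul_mulVec, gl_mul_mulVec, gl_mul_mulVec, ru_eN hj, zA_mulVec, zA_mulVec,
        sympTransGL_mulVec]
      simp only [sf_eN_eN, sf_sN_eN, zero_smul, add_zero, mul_zero]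
      rw [ru_eN hj]
    · intro j hj
      rw [gl_mul_mulVec, gl_mul_mulVec, gl_mul_mulVec]
      by_cases h0 : j = 0
      · subst h0
        rw [ru_fN0 (by omega), zA_mulVec, zA_mulVec, sympTransGL_mulVec]
        simp only [sf_fN_eN_self (show 0 < 2 by omega), sf_fN_eN_self (show 1 < 2 by omega),
          sf_fN_eN_ne (show (0 : ℕ) ≠ 1 by omega), sf_fN_eN_ne (show (1 : ℕ) ≠ 0 by omega),
          sf_add_left, sf_sub_left, sf_smul_left, sf_eN_eN]
        simp only [Matrix.mulVec_add, Matrix.mulVec_sub, Matrix.mulVec_smul, Matrix.mulVec_neg,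
          ru_eN (show 0 < 2 by omega), ru_eN (show 1 < 2 by omega), ru_fN0 (show 1 < 2 by omega)]
        rw [sN_one, sN_zero]
        module
      · have h1 : j = 1 := by omega
        subst h1
        rw [hl, zA_mulVec, zA_mulVec, sympTransGL_mulVec]
        simp only [sf_fN_eN_self (show 1 < 2 by omega), sf_fN_eN_ne (show (1 : ℕ) ≠ 0 by omega),
          sf_add_left, sf_sub_left, sf_smul_left, sf_eN_eN, sf_sN_eN]
        simp only [Matrix.mulVec_add, Matrix.mulVec_sub, Matrix.mulVec_smul, Matrix.mulVec_neg,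
          ru_eN (show 0 < 2 by omega), ru_eN (show 1 < 2 by omega), hl]
        rw [sN_zero]
        module
  rw [key]
  group

/-! ### The prime field case -/

theorem prime_case [Fintype F] (hp : (Fintype.card F).Prime) (hm : 2 ≤ m)
    (h22 : ¬ (m = 2 ∧ Fintype.card F = 2)) :
    ∃ g h : GL (Fin m ⊕ Fin m) F, g ∈ spGL m F ∧ h ∈ spGL m F ∧
      spGL m F ≤ Subgroup.closure {ruGL m F, g * ruGL m F * g⁻¹, h * ruGL m F * h⁻¹} := by
  -- the conjugator
  have hz : ∃ z : GL (Fin m ⊕ Fin m) F, z ∈ spGL m F ∧ ∃ c : F, c ≠ 0 ∧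
      z * ruGL m F * z⁻¹ = ruGL m F * sympTransGL m (eN m F 0) c := by
    by_cases h3 : 3 ≤ m
    · exact ⟨zB m F, zB_mem, 1, one_ne_zero, trickB h3⟩
    · have hm2 : m = 2 := by omega
      subst hm2
      refine ⟨zA 2 F, zA_mem, -2, ?_, trickA⟩
      intro h2
      have h2' : (2 : F) = 0 := by
        have := neg_eq_zero.mp h2
        exact this
      have hch : CharP F 2 := CharTwo.of_one_ne_zero_of_two_eq_zero one_ne_zero h2'
      have hr : ringChar F = 2 := ringChar.eq F 2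
      have hev := (FiniteField.even_card_iff_char_two).mp hr
      have hdvd : 2 ∣ Fintype.card F := Nat.dvd_of_mod_eq_zero hev
      have := (Nat.prime_dvd_prime_iff_eq Nat.prime_two hp).mp hdvd
      exact h22 ⟨rfl, this.symm⟩
  obtain ⟨z, hzS, c, hc0, hzu⟩ := hz
  have hJ : jGL m F ∈ spGL m F := jGL_mem
  refine ⟨jGL m F, jGL m F * z, hJ, (spGL m F).mul_mem hJ hzS, ?_⟩
  set K : Subgroup (GL (Fin m ⊕ Fin m) F) :=
    Subgroup.closure {ruGL m F, jGL m F * ruGL m F * (jGL m F)⁻¹,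
      jGL m F * z * ruGL m F * (jGL m F * z)⁻¹} with hK
  have huK : ruGL m F ∈ K := Subgroup.subset_closure (by simp)
  have humK : umGL m F ∈ K := Subgroup.subset_closure (by simp [umGL])
  have h3K : jGL m F * z * ruGL m F * (jGL m F * z)⁻¹ ∈ K := Subgroup.subset_closure (by simp)
  have e3 : jGL m F * z * ruGL m F * (jGL m F * z)⁻¹
      = umGL m F * sympTransGL m (fN m F 0) c := by
    have e4 : jGL m F * z * ruGL m F * (jGL m F * z)⁻¹
        = jGL m F * (z * ruGL m F * z⁻¹) * (jGL m F)⁻¹ := by group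
    rw [e4, hzu, ← j_eN, ← sympTransGL_conj (jGL m F) hJ]
    unfold umGL
    group
  have hcK : c ∈ transScalars K (fN m F 0) := by
    rw [mem_transScalars]
    have : sympTransGL m (fN m F 0) c
        = (umGL m F)⁻¹ * (jGL m F * z * ruGL m F * (jGL m F * z)⁻¹) := by
      rw [e3, inv_mul_cancel_left]
    rw [this]
    exact K.mul_mem (K.inv_mem humK) h3K
  have htop : transScalars K (fN m F 0) = ⊤ := by
    have : Fact (Nat.card F).Prime := ⟨by rw [Nat.card_eq_fintype_card]; exact hp⟩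
    refine (AddSubgroup.eq_bot_or_eq_top_of_prime_card _).resolve_left ?_
    intro hbot
    rw [hbot, AddSubgroup.mem_bot] at hcK
    exact hc0 hcK
  have hf0 : fN m F 0 ∈ transCenters K := mem_transCenters_of_top K _ htop
  exact spGL_le_of_transCenters K (chain_all (by omega) K huK humK hf0)

end Cfsg.Agent.Lib.Helper94.SpRU
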